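import Mathlib
import Cfsg.Agent.Lib.K44.AV

/-! A bound for the number of characters of height zero from a semireal cyclic subsection. -/

set_option autoImplicit false
set_option linter.unusedSectionVars false
set_option linter.style.haveILetI false
attribute [local irreducible] H33.instFieldF

namespace OL5

open Cfsg H84 H85 K44
open H33 (F eB)
open H86 (Cen Nor cj cs eS St Mor)
open Subgroup (zpowers center centralizer)
open scoped SubFin ComplexConjugate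

universe u

section tau

open Finset Polynomial

variable {D : Type*} [CommGroup D] [Fintype D] {K : ℕ} {g v : D}

/-- The semidihedral automorphism. -/
def av2τ (K : ℕ) : D →* D := MonoidHom.mk' (fun v => v⁻¹ * v ^ 2 ^ K) fun a b => by
  rw [mul_inv, mul_pow, mul_mul_mul_comm]

theorem av2τ_apply (K : ℕ) (v : D) : av2τ K v = v⁻¹ * v ^ 2 ^ K := rfl

theorem av2_pp (h : CycP 2 K g) (hK : 1 ≤ K) (v : D) : (v ^ 2 ^ K) ^ 2 ^ K = 1 := by
  obtain ⟨j, rfl⟩ : ∃ j, K = j + 1 := ⟨K - 1, by omega⟩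
  rw [pow_succ' 2 j, pow_mul (v ^ _), ← pow_mul v, ← pow_succ' 2 j, ← pow_succ, h.pow_eq_one, one_pow]

theorem av2τ_pow (h : CycP 2 K g) (hK : 1 ≤ K) (v : D) : av2τ K v ^ 2 ^ K = (v ^ 2 ^ K)⁻¹ := by
  rw [av2τ_apply, mul_pow, av2_pp h hK, mul_one, inv_pow]

theorem av2τ_mem (h : CycP 2 K g) (hK : 1 ≤ K) (hv : v ∈ gens 2 K D) : av2τ K v ∈ gens 2 K D := by
  rw [mem_gens, av2τ_pow h hK, inv_ne_one]
  exact mem_gens.1 hv

theorem av2τ_τ (h : CycP 2 K g) (hK : 1 ≤ K) (v : D) : av2τ K (av2τ K v) = v := by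
  have := h.pow_eq_one v
  rw [pow_succ, pow_mul, sq] at this
  rw [av2τ_apply K (av2τ K v), av2τ_pow h hK, av2τ_apply, mul_inv, inv_inv, mul_assoc, ← mul_inv,
    this, inv_one, mul_one]

theorem av2τ_ne (h : CycP 2 K g) (hK : 2 ≤ K) (hv : v ∈ gens 2 K D) : v ≠ av2τ K v := fun e => by
  obtain ⟨j, rfl⟩ : ∃ j, K = j + 1 + 1 := ⟨K - 2, by omega⟩
  rw [av2τ_apply, eq_inv_mul_iff_mul_eq, ← sq] at e
  refine mem_gens.1 hv ?_
  rw [pow_succ' 2 (j + 1), pow_mul, e, pow_succ' 2 j, pow_mul (v ^ _), ← pow_mul v, ← pow_succ,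
    h.pow_eq_one, one_pow]

theorem av2_avg {M : Ideal AlgInt} [M.IsMaximal] (h : CycP 2 K g) (hK : 2 ≤ K)
    (hM : IsPModular 2 M) {x : D → ℂ} (hx : IsGeneralizedCharacter D x)
    (hre : ∀ v ∈ gens 2 K D, x v = x (av2τ K v)) :
    ∃ a : ℤ, ∑ v ∈ gens 2 K D, x v = (gens 2 K D).card * a ∧ H33.red M (x g) = a := by
  haveI := H33.charP hM
  have hK' : 1 ≤ K := by omega
  obtain ⟨l, hl⟩ := h.exists_faithful
  obtain ⟨r, hr, hx'⟩ := h.exists_poly_lt hl hx
  have hr' : r.natDegree < 2 ^ K := by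
    by_cases h0 : r = 0
    · simp [h0]
    · exact (natDegree_lt_iff_degree_lt h0).2 hr
  have hc : ((gens 2 K D).card : ℂ) ≠ 0 := by exact_mod_cast h.card_gens_pos.ne'
  have hsym : ∀ j, 0 < j → j < 2 ^ K → r.coeff (2 ^ K - j) = -((-1) ^ j * r.coeff j) := fun j j0 hj => by
    have e1 := h.sum_aeval_mul hl hr hj
    have e2 := h.sum_aeval_mul hl hr (j := 2 ^ K - j) (by omega)
    rw [Nat.sub_sub_self hj.le, sum_nbij' (t := gens 2 K D) (g := fun v => -((-1) ^ j *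
      (aeval ((l v : ℂˣ) : ℂ) r * ((l v : ℂˣ) : ℂ) ^ (2 ^ K - j)))) (av2τ K) (av2τ K)
      (fun _ => av2τ_mem h hK') (fun _ => av2τ_mem h hK') (fun v _ => av2τ_τ h hK' v)
      (fun v _ => av2τ_τ h hK' v), sum_neg_distrib, ← mul_sum, e1] at e2
    · apply Int.cast_injective (α := ℂ)
      apply mul_left_cancel₀ hc
      push_cast
      linear_combination e2
    · intro v hv
      have e3 := h.pow_eq_neg_one hl hv
      have e4 := h.pow_eq_neg_one hl (av2τ_mem h hK' hv)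
      rw [← Nat.add_sub_cancel' hj.le, pow_add] at e4
      have e5 : ((l v : ℂˣ) : ℂ) * (l (av2τ K v) : ℂˣ) = -1 := by
        rw [← Units.val_mul, ← map_mul, av2τ_apply, mul_inv_cancel_left, map_pow,
          Units.val_pow_eq_pow_val, e3]
      have e6 := congrArg (· ^ j) e5
      simp only [mul_pow] at e6
      rw [← hx' v hv, ← hx' _ (av2τ_mem h hK' hv), ← hre v hv, ← e6]
      linear_combination x v * ((l v : ℂˣ) : ℂ) ^ j * e4
  refine ⟨r.coeff 0, neg_injective ?_, ?_⟩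
  · rw [← h.sum_aeval_mul hl hr (j := 0) (by positivity), ← sum_neg_distrib]
    exact sum_congr rfl fun v hv => by rw [hx' v hv, Nat.sub_zero, h.pow_eq_neg_one hl hv, mul_neg_one]
  · rw [hx' g h.mem, red_aeval (H33.mem_O_of_pow_eq_one M (by positivity) hl.pow_eq_one)
      (H33.red_eq_one_of_pow_prime_pow hM hl.pow_eq_one), eval_eq_sum_range' hr']
    obtain ⟨n, hn⟩ : ∃ n, 2 ^ K = n + 1 := Nat.exists_eq_succ_of_ne_zero (by positivity)
    simp only [one_pow, mul_one]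
    rw [hn, sum_range_succ']
    push_cast
    rw [add_eq_right]
    refine sum_involution (fun i _ => n - 1 - i) (fun i hi => ?_) (fun i hi h0 e => h0 ?_)
      (fun i hi => mem_range.2 (by have := mem_range.1 hi; omega))
      (fun i hi => by have := mem_range.1 hi; omega)
    · have hi := mem_range.1 hi
      rw [show n - 1 - i + 1 = 2 ^ K - (i + 1) by omega, hsym (i + 1) (by omega) (by omega)]
      push_cast
      rw [CharTwo.neg_eq, CharTwo.neg_eq, one_pow, one_mul, CharTwo.add_self_eq_zero]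
    · have hi := mem_range.1 hi
      have e1 := hsym (i + 1) (by omega) (by omega)
      obtain ⟨j, rfl⟩ : ∃ j, K = j + 2 := ⟨K - 2, by omega⟩
      have e2 : 2 ^ (j + 2) = 4 * 2 ^ j := by ring
      rw [show 2 ^ (j + 2) - (i + 1) = i + 1 by omega,
        (show Even (i + 1) from ⟨2 ^ j, by omega⟩).neg_one_pow] at e1
      rw [show r.coeff (i + 1) = 0 by omega, Int.cast_zero]

end tau

variable {G : Type u} [Group G] [Fintype G] {M : Ideal AlgInt} [M.IsMaximal]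
  {B : Set (IrrCharacter G)} {P : Subgroup G} {e : MonoidAlgebra (F M) G} {u z : G}

theorem av2_main {D : Type*} [CommGroup D] [Fintype D] {k : ℕ} {g : D} (hg : CycP 2 (k + 1) g)
    (hk : 1 ≤ k)
    (ι : D →* G) (h : MP 2 M B P e) (hu : ι g ∈ P) (ho : orderOf (ι g) = 2 ^ (k + 2))
    (hl : blockRank 2 (loc 2 M P e (zpowers (ι g))) = 1) 
    (h1 : Fus 2 P e (ι g) (ι (av2τ (k + 1) g)))
    (h2 : ∀ v ∈ zpowers (ι g), Fus 2 P e (ι g) v → v = ι g ∨ v = ι (av2τ (k + 1) g)) :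
    k0 B * 2 ^ k ≤ 2 ^ blockDefect 2 (loc 2 M P e (zpowers (ι g))) := by
  letI := Classical.decEq D
  have hinj : Function.Injective ι := (injective_iff_map_eq_one ι).2 fun v hv => by
    obtain ⟨m, rfl⟩ := hg.exists_pow v
    rw [map_pow, ← orderOf_dvd_iff_pow_eq_one, ho, ← hg.ord, orderOf_dvd_iff_pow_eq_one] at hv
    exact hv
  have hz : ∀ v, ι v ∈ zpowers (ι g) := fun v => by
    obtain ⟨m, rfl⟩ := hg.exists_pow v
    rw [map_pow]
    exact Subgroup.pow_mem _ (Subgroup.mem_zpowers _) m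
  have hP : ∀ v, ι v ∈ P := fun v => Subgroup.zpowers_le.2 hu (hz v)
  have hι : CenHom ι (Cen (zpowers (ι g))) := ⟨fun v => zpowers_le_Cen _ (hz v), fun v c hc =>
    H86.mem_Cen.mp hc _ (hz v)⟩
  have hinv : ∀ v, Fus 2 P e (ι v) (ι (av2τ (k + 1) v)) := fun v => by
    obtain ⟨m, rfl⟩ := hg.exists_pow v
    have := h.fus_zpow h1 m
    rwa [zpow_natCast, zpow_natCast, ← map_pow, ← map_pow, ← map_pow] at this
  have hfus : ∀ v ∈ gens 2 (k + 1) D, ∀ v',
      Fus 2 P e (ι v) (ι v') → v' = v ∨ v' = av2τ (k + 1) v := fun v hv v' hf => by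
    obtain ⟨n, hn⟩ := (hg.of_mem hv).exists_pow g
    obtain ⟨m, hm⟩ := hg.exists_pow v
    obtain ⟨j, hj⟩ := (hg.of_mem hv).exists_pow v'
    have h3 := h.fus_zpow hf n
    rw [zpow_natCast, zpow_natCast, ← map_pow, ← map_pow, ← hn] at h3
    have h4 : v' = (v' ^ n) ^ m := by
      have h4 : (v ^ n) ^ m = v := by rw [← hn, ← hm]
      rw [hj, pow_right_comm v j n, pow_right_comm (v ^ n) j m, h4]
    rcases h2 _ (hz _) h3 with h5 | h5
    · left; rw [h4, hinj h5, ← hm]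
    · right; rw [h4, hinj h5, ← map_pow, ← hm]
  obtain ⟨S, hS⟩ : ∃ S, S = gens 2 (k + 1) D := ⟨_, rfl⟩
  obtain ⟨b, hb⟩ : ∃ b, b = loc 2 M P e (zpowers (ι g)) := ⟨_, rfl⟩
  rw [← hb]
  have hdv : ∀ (χ : IrrCharacter G), ∀ v ∈ S, qf 2 b (sub 2 (ι v) _ b χ) (brc 2 b) =
      dv 2 M P e χ (ι v) := fun χ v hv => by
    rw [hb, H33.Tame.dv_of_zpowers (hg.zpowers_map ι (hS ▸ hv))]
  have hav : ∀ χ : IrrCharacter G, ∃ a : ℤ, ∑ v ∈ S, dv 2 M P e χ (ι v) = S.card * a ∧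
      H33.red M (dv 2 M P e χ (ι g)) = a := fun χ => by
    have hx := hι.isGen_qf_left (p := 2) (b := b) (irr_gen χ) (brc_mem_lat b)
    obtain ⟨a, h3, h4⟩ := av2_avg hg (by omega) h.hM hx fun v hv => by
      rw [hdv χ v (hS ▸ hv), hdv χ _ (hS ▸ av2τ_mem hg (by omega) hv),
        h.dv_fus (hinv v) (H6.gen_isClassFunction (irr_gen χ))]
    rw [← hS] at h3
    rw [hdv χ g (hS ▸ hg.mem)] at h4
    exact ⟨a, by rw [← h3]; exact Finset.sum_congr rfl fun v hv => (hdv χ v hv).symm, h4⟩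
  choose a ha ha' using hav
  have key : ∑ χ ∈ bset B, ((S.card : ℂ) * a χ) * conj ((S.card : ℂ) * a χ) =
      S.card * (2 * 2 ^ blockDefect 2 b) := by
    simp only [← ha, map_sum, Finset.sum_mul_sum]
    rw [Finset.sum_comm, ← nsmul_eq_mul, ← Finset.sum_const]
    refine Finset.sum_congr rfl fun v hv₀ => ?_
    have hv : v ∈ gens 2 (k + 1) D := hS ▸ hv₀
    have hne : v ≠ av2τ (k + 1) v := av2τ_ne hg (by omega) hv
    have hl' : blockRank 2 (loc 2 M P e (zpowers (ι v))) = 1 := by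
      rw [hg.zpowers_map ι hv]; exact hl
    have hd : blockDefect 2 (loc 2 M P e (zpowers (ι v))) = blockDefect 2 b := by
      rw [hg.zpowers_map ι hv, hb]
    rw [Finset.sum_comm, ← Finset.sum_subset (s₁ := {v, av2τ (k + 1) v}) (by
        simp [Finset.insert_subset_iff, hS, hv, av2τ_mem hg (by omega) hv]) fun v' _ hv' =>
        h.sum_dv_of_not_fus (hP v) (hP v') fun hf => hv' (by simpa using hfus v hv v' hf),
      Finset.sum_pair hne, h.sum_dv_of_fus (h.fus_refl (hP v)) hl', h.sum_dv_of_fus (hinv v) hl',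
      hd]
    push_cast
    ring
  have hc : 0 < S.card := hS ▸ hg.card_gens_pos
  have key2 : (S.card : ℤ) * ∑ χ ∈ bset B, a χ ^ 2 = 2 * 2 ^ blockDefect 2 b := by
    apply Int.cast_injective (α := ℂ)
    apply mul_left_cancel₀ (show (S.card : ℂ) ≠ 0 by exact_mod_cast hc.ne')
    push_cast
    rw [← key, Finset.mul_sum, Finset.mul_sum]
    exact Finset.sum_congr rfl fun χ _ => by simp only [map_mul, map_natCast, map_intCast]; ring
  obtain ⟨X, hX⟩ : ∃ X, X = (bset B).filter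
    fun χ : IrrCharacter G => blockHeight 2 B (χ : G → ℂ) = 0 := ⟨_, rfl⟩
  have hk : k0 B = X.card := Nat.subtype_card X fun χ => by rw [hX, Finset.mem_filter, mem_bset]
  have h3 : (X.card : ℤ) ≤ ∑ χ ∈ bset B, a χ ^ 2 := by
    refine le_trans ?_ (Finset.sum_le_sum_of_subset_of_nonneg (hX ▸ Finset.filter_subset _ _ : X ⊆ _)
      fun χ _ _ => sq_nonneg (a χ))
    have := Finset.card_nsmul_le_sum X (fun χ => a χ ^ 2) 1 fun χ hχ => by
      obtain ⟨h4, h5⟩ := Finset.mem_filter.1 (hX ▸ hχ)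
      have h6 := (h.red_dv_ne_zero_iff hu hl (mem_bset.1 h4)).2 h5
      rw [ha'] at h6
      have h7 : a χ ≠ 0 := fun h7 => h6 (by rw [h7, Int.cast_zero])
      exact Int.add_one_le_iff.2 (show (0 : ℤ) < a χ ^ 2 by positivity)
    simpa using this
  have h4 : ((2 ^ (k + 1) : ℕ) : ℤ) ≤ S.card := by rw [hS]; exact_mod_cast av_card_gens hg
  have h5 : ((2 ^ (k + 1) : ℕ) : ℤ) * X.card ≤ 2 * 2 ^ blockDefect 2 b := by
    rw [← key2]
    exact mul_le_mul h4 h3 (by positivity) (by positivity)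
  rw [hk]
  have h6 : 2 ^ (k + 1) * X.card ≤ 2 * 2 ^ blockDefect 2 b := by exact_mod_cast h5
  rw [pow_succ', mul_assoc] at h6
  rw [mul_comm]
  omega

theorem k0_mul_le' (h : MP 2 M B P e) (hu : u ∈ P) {k : ℕ} (hk : 1 ≤ k)
    (ho : orderOf u = 2 ^ (k + 2)) (hl : blockRank 2 (loc 2 M P e (zpowers u)) = 1)
    (h1 : Fus 2 P e u (u⁻¹ * u ^ 2 ^ (k + 1)))
    (h2 : ∀ v ∈ zpowers u, Fus 2 P e u v → v = u ∨ v = u⁻¹ * u ^ 2 ^ (k + 1)) :
    k0 B * 2 ^ k ≤ 2 ^ blockDefect 2 (loc 2 M P e (zpowers u)) := by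
  obtain ⟨g, hg⟩ := exists_cycP 2 (k + 1)
  letI := Fintype.ofFinite (rootsOfUnity (2 ^ (k + 1 + 1)) ℂ)
  obtain ⟨ι, rfl⟩ := hg.exists_hom (u := u) (by rw [← ho, pow_orderOf_eq_one])
  rw [← map_pow, ← map_inv, ← map_mul] at h1 h2
  exact av2_main hg hk ι h hu ho hl h1 h2

end OL5
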