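import Mathlib
import Cfsg.Agent.Lib.Blk86.Stable

/-! Shapes of 2-groups of order at most 32 used for Olsson's bound. -/

set_option autoImplicit false

namespace OL5

open H86 (Cen Nor)
open Subgroup (zpowers center centralizer)

/-- Order of the centralizer of an element. -/
noncomputable def cc {D : Type*} [Group D] (u : D) : ℕ := Nat.card (centralizer ({u} : Set D))

/-- An element with small centralizer that cannot be fused to one with a larger centralizer. -/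
def Easy (D : Type*) [Group D] : Prop :=
  ∃ u : D, cc u ≤ 4 * orderOf u ∧ cc u ≤ (commutator D).index ∧
    ∀ v : D, orderOf v = orderOf u → cc v ≤ cc u ∨
      (u ^ 2 ∈ center D ∧ v ^ 2 ∈ center D ∧ u ^ 2 ∉ commutator D ∧ v ^ 2 ∈ commutator D)

/-- `C(a) = ⟨a, b⟩` has index two and `t` acts on `a` as in a dihedral or semidihedral group. -/
structure AVc {D : Type*} [Group D] (k : ℕ) (a b t : D) : Prop where
  ord : orderOf a = 2 ^ (k + 2)
  conj : t * a * t⁻¹ = a⁻¹ ∨ (1 ≤ k ∧ t * a * t⁻¹ = a⁻¹ * a ^ 2 ^ (k + 1))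
  sq : b ^ 2 = 1
  cen : ∀ x, x * a = a * x ↔ ∃ i : ℤ, x = a ^ i ∨ x = a ^ i * b
  two : Nat.card D = 2 * cc a
  le : cc a ≤ 2 ^ k * (commutator D).index
  zexp : ∀ z ∈ center D, z ^ 2 ^ (k + 1) = 1

def C1 (D : Type*) [Group D] : Prop := Nat.card (commutator D) = 2 ∧ (center D).index = 4

def G4 (D : Type*) [Group D] : Prop :=
  Nat.card D = 32 ∧ commutator D = center D ∧ Nat.card (center D) = 4

variable {G : Type*} [Group G]

structure C1d (P : Subgroup G) (u z : G) : Prop where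
  mu : u ∈ P
  mz : z ∈ P
  z1 : z ≠ 1
  z2 : z ^ 2 = 1
  zc : z ∈ Cen P
  comm : ∀ x ∈ P, ∀ y ∈ P, x * y * x⁻¹ * y⁻¹ = 1 ∨ x * y * x⁻¹ * y⁻¹ = z
  nu : u ∉ Cen P
  cen : ∀ x ∈ P, x * u = u * x → x ∈ Cen P ∨ x * u⁻¹ ∈ Cen P
  two : Nat.card P = 2 * Nat.card (P ⊓ Cen (zpowers u) : Subgroup G)
  alt : (∃ c ∈ P ⊓ Cen P, z = c ^ 2) ∨ ∀ x ∈ P, x * u = u * x → x ^ 2 = 1 → x ∈ Cen P

structure G4d (P : Subgroup G) (u : G) : Prop where
  mu : u ∈ P
  cl : ∀ x ∈ P, ∀ y ∈ P, x * y * x⁻¹ * y⁻¹ ∈ Cen P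
  nu : u ∉ Cen P
  cen : ∀ x ∈ P, x * u = u * x → x ∈ Cen P ∨ x * u⁻¹ ∈ Cen P
  c8 : Nat.card (P ⊓ Cen (zpowers u) : Subgroup G) = 8
  z4 : Nat.card (P ⊓ Cen P : Subgroup G) = 4
  onto : ∀ z ∈ P ⊓ Cen P, ∃ s ∈ P, s * u * s⁻¹ = z * u

theorem mem_cen {D : Type*} [Group D] {u x : D} :
    x ∈ centralizer ({u} : Set D) ↔ x * u = u * x := Subgroup.mem_centralizer_singleton_iff

theorem mem_center_iff {P : Subgroup G} (x : P) : x ∈ center P ↔ (x : G) ∈ Cen P := by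
  rw [Subgroup.mem_center_iff, H86.mem_Cen]
  exact ⟨fun h y hy => congrArg Subtype.val (h ⟨y, hy⟩), fun h y => Subtype.ext (h y y.2)⟩

theorem map_cen {P : Subgroup G} (u : P) :
    (centralizer ({u} : Set P)).map P.subtype = P ⊓ Cen (zpowers (u : G)) := by
  ext x
  rw [Subgroup.mem_map, Subgroup.mem_inf, H86.mem_Cen_zpowers]
  constructor
  · rintro ⟨y, hy, rfl⟩
    exact ⟨y.2, (congrArg Subtype.val (mem_cen.1 hy)).symm⟩
  · rintro ⟨h1, h2⟩
    exact ⟨⟨x, h1⟩, mem_cen.2 (Subtype.ext h2.symm), rfl⟩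

theorem cc_coe {P : Subgroup G} (u : P) :
    cc u = Nat.card (P ⊓ Cen (zpowers (u : G)) : Subgroup G) := by
  rw [← map_cen, Subgroup.card_map_of_injective P.subtype_injective, cc]

theorem card_center {P : Subgroup G} : Nat.card (center P) = Nat.card (P ⊓ Cen P : Subgroup G) := by
  rw [← Subgroup.card_map_of_injective (K := center P) P.subtype_injective]
  congr 2
  ext x
  rw [Subgroup.mem_map, Subgroup.mem_inf]
  constructor
  · rintro ⟨y, hy, rfl⟩
    exact ⟨y.2, (mem_center_iff y).1 hy⟩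
  · rintro ⟨h1, h2⟩
    exact ⟨⟨x, h1⟩, (mem_center_iff _).2 h2, rfl⟩

theorem two_mul_cc_le {D : Type*} [Group D] [Finite D] {v : D} (hv : v ∉ center D) :
    2 * cc v ≤ Nat.card D := by
  have h1 : (centralizer ({v} : Set D)).index ≠ 1 := fun h => hv (Subgroup.mem_center_iff.2 fun g =>
    mem_cen.1 (by rw [Subgroup.index_eq_one.1 h]; trivial))
  have h2 : (centralizer ({v} : Set D)).index ≠ 0 := Subgroup.index_ne_zero_of_finite
  rw [← (centralizer ({v} : Set D)).index_mul_card]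
  exact Nat.mul_le_mul_right _ (by omega)

end OL5
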