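import Mathlib
import Cfsg.Agent.Lib.K44.Num
import Cfsg.Agent.Lib.K44.Ext
import Cfsg.Agent.Lib.Block.QuotRank
import Cfsg.Agent.Lib.OL5.Defs
import Cfsg.Agent.S4541
import Cfsg.Agent.S4698
import Cfsg.Agent.S4733

set_option autoImplicit false
set_option linter.unusedSectionVars false
set_option linter.style.haveILetI false
attribute [local irreducible] H33.instFieldF

namespace OL5

open Cfsg H84 H85 K44
open H33 (F eB)
open H86 (Cen Nor cj cs eS St Mor)
open Subgroup (zpowers center centralizer)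
open scoped SubFin

universe u

variable {G : Type u} [Group G] [Fintype G] {M : Ideal AlgInt} [M.IsMaximal]
  {B : Set (IrrCharacter G)} {P : Subgroup G} {e : MonoidAlgebra (F M) G} {u z : G}

theorem k0_le_pow (h : MP 2 M B P e) (hu : u ∈ P)
    (hl : blockRank 2 (loc 2 M P e (zpowers u)) ≤ 3) :
    k0 B ≤ 2 ^ blockDefect 2 (loc 2 M P e (zpowers u)) := by
  have hu' : ∃ j : ℕ, orderOf u = 2 ^ j := by
    obtain ⟨j, hj⟩ := IsPGroup.iff_orderOf.1 h.pgrp ⟨u, hu⟩
    exact ⟨j, by rw [← hj, Subgroup.orderOf_mk]⟩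
  have key : ∀ C : Subgroup G, C = centralizer ({u} : Set G) → ∀ b : Set (IrrCharacter C),
      IsInducedBlock M C b B → blockRank 2 b ≤ 3 → k0 B ≤ 2 ^ blockDefect 2 b := by
    rintro _ rfl b hb hl
    exact (Cfsg.Agent.S4541.result M h.hM B h.hB u hu' b hb).2.2 hl
  refine key _ (Subgroup.ext fun g => ?_) _ (h.induced_z hu) hl
  rw [H86.mem_Cen_zpowers, mem_cen, eq_comm]

theorem pow_defect_of_fc (h : MP 2 M B P e) (hu : u ∈ P) (hf : FC 2 P e u) :
    2 ^ blockDefect 2 (loc 2 M P e (zpowers u)) = Nat.card (P ⊓ Cen (zpowers u) : Subgroup G) := by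
  obtain ⟨n, hn⟩ := IsPGroup.iff_card.1 (h.pgrp.to_inf_left (K := Cen (zpowers u)))
  rw [defect_of_fc h hu hf hn, hn]

theorem k0_le_card (h : MP 2 M B P e) (hu : u ∈ P) (hf : FC 2 P e u)
    (hl : blockRank 2 (loc 2 M P e (zpowers u)) ≤ 3) :
    k0 B ≤ Nat.card (P ⊓ Cen (zpowers u) : Subgroup G) := by
  rw [← pow_defect_of_fc h hu hf]
  exact k0_le_pow h hu hl

theorem rank_le_small (h : MP 2 M B P e) (hu : u ∈ P) (hf : FC 2 P e u)
    (hc : Nat.card (P ⊓ Cen (zpowers u) : Subgroup G) ≤ 4 * orderOf u) :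
    blockRank 2 (loc 2 M P e (zpowers u)) ≤ 3 := by
  have hQ : zpowers u ≤ P := Subgroup.zpowers_le.2 hu
  let z' : Cen (zpowers u) := ⟨u, zpowers_le_Cen u (Subgroup.mem_zpowers u)⟩
  have cz : ∀ g : Cen (zpowers u), Commute z' g := fun g =>
    Subtype.ext (Subgroup.mem_centralizer_iff.1 g.2 u (Subgroup.mem_zpowers _))
  have cZ : ∀ g, g ∈ Cen (zpowers z') := fun g => by
    rw [Subgroup.mem_centralizer_iff]
    rintro _ ⟨n, rfl⟩
    exact ((cz g).zpow_left n).eq
  haveI : (zpowers z').Normal := ⟨fun n hn g => by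
    rw [← Subgroup.mem_centralizer_iff.1 (cZ g) n hn, mul_inv_cancel_right]; exact hn⟩
  have hb := h.blk hQ
  have o : Nat.card (zpowers z') = orderOf u := by rw [Nat.card_zpowers, Subgroup.orderOf_mk]
  have hZ : IsPGroup 2 (zpowers z') := by
    obtain ⟨j, hj⟩ := IsPGroup.iff_orderOf.1 h.pgrp ⟨u, hu⟩
    exact IsPGroup.of_card (n := j) (by rw [o, ← hj, Subgroup.orderOf_mk])
  have hq : H86.PQuot 2 (Cen (zpowers z')) ⊤ := fun g _ _ => cZ g
  have b1 := H86.isPBlock_quotSet h.hM hb hZ hq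
  have d := pow_defect_quotSet h.hM hb hZ hq
  rw [pow_defect_of_fc h hu hf, o] at d
  rw [← blockRank_quotSet h.hM hb hZ hq]
  generalize H86.quotSet (zpowers z') (loc 2 M P e (zpowers u)) = b at b1 d ⊢
  have d2 : 2 ^ blockDefect 2 b ≤ 2 ^ 2 :=
    Nat.le_of_mul_le_mul_left (by rw [← d, mul_comm]; exact hc) (orderOf_pos u)
  have k := ((Cfsg.Agent.S4698.result 2 M h.hM b b1 _ rfl).1
    ((Nat.pow_le_pow_iff_right one_lt_two).1 d2)).trans d2
  obtain ⟨l1, l2, l3⟩ := Cfsg.Agent.S4733.result 2 M h.hM b b1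
  by_contra n
  have := (l2.1 (l3.2 (by omega))).2
  omega

theorem k0_le_of_easy (h : MP 2 M B P e) (hE : Easy P) : k0 B ≤ (commutator P).index := by
  obtain ⟨u, h1, h2, h3⟩ := hE
  have hf : FC 2 P e u := fun v hv => by
    have o : orderOf (⟨v, hv.right⟩ : P) = orderOf u := by
      obtain ⟨c, hc⟩ := isConj_iff.1 hv.isConj
      rw [Subgroup.orderOf_mk, ← hc, ← Subgroup.orderOf_coe]
      exact (MulAut.conj c).orderOf_eq _
    rcases h3 _ o with k | ⟨k1, k2, k3, k4⟩
    · rwa [cc_coe, cc_coe] at k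
    exfalso
    have cen : ∀ x : P, x ∈ center P → P ≤ Cen (zpowers (x : G)) := fun x hx =>
      H86.le_Cen_comm.1 (Subgroup.zpowers_le.2 ((mem_center_iff x).1 hx))
    have f := h.fus_zpow hv (2 : ℕ)
    rw [zpow_natCast, zpow_natCast] at f
    obtain ⟨g, hg, eg⟩ := extC h f (fc_of_central (cen _ k2))
    rw [inf_eq_left.2 (show P ≤ Cen (zpowers ((u : G) ^ 2)) from cen _ k1)] at hg
    have ec : cs g P = P := Subgroup.eq_of_le_of_card_ge hg.cs_le (H86.card_cs g P).ge
    refine k3 ?_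
    rw [← Subgroup.characteristic_iff_comap_eq.1 (inferInstance : (commutator P).Characteristic)
      (H86.csEquiv g ec), Subgroup.mem_comap]
    convert k4 using 1
    exact Subtype.ext eg.symm
  rw [cc_coe] at h1 h2
  rw [← Subgroup.orderOf_coe] at h1
  exact (k0_le_card h u.2 hf (rank_le_small h u.2 hf h1)).trans h2

end OL5
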