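import Mathlib
import Cfsg.Agent.Lib.OL5.Defs

set_option autoImplicit false

namespace OL5

open H86 (Cen Nor)
open Subgroup (zpowers center centralizer)
open scoped commutatorElement

variable {D : Type*} [Group D] [Finite D]

omit [Finite D] in
theorem gb_comm (g u : D) : g * u * g⁻¹ * u⁻¹ ∈ commutator D :=
  Subgroup.commutator_mem_commutator (Subgroup.mem_top g) (Subgroup.mem_top u)

theorem gb_index_le (u : D) {W : Subgroup D} (h : ∀ g, g * u * g⁻¹ * u⁻¹ ∈ W) :
    (centralizer ({u} : Set D)).index ≤ Nat.card W := by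
  refine Nat.card_le_card_of_injective (fun q : D ⧸ centralizer ({u} : Set D) =>
    (⟨_, h q.out⟩ : W)) fun p q e => ?_
  rw [← p.out_eq', ← q.out_eq', QuotientGroup.eq, mem_cen]
  have e' : p.out * u * p.out⁻¹ = q.out * u * q.out⁻¹ :=
    mul_right_cancel (congrArg Subtype.val e)
  calc _ = p.out⁻¹ * (q.out * u * q.out⁻¹) * q.out := by group
    _ = _ := by rw [← e']; group

/-- A conjugacy class lies in a coset of the derived subgroup. -/
theorem index_le_cc (u : D) : (commutator D).index ≤ cc u := by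
  have h1 := gb_index_le u fun g => gb_comm g u
  have h2 := (commutator D).index_mul_card
  rw [← (centralizer ({u} : Set D)).index_mul_card, mul_comm] at h2
  refine Nat.le_of_mul_le_mul_left (c := Nat.card (commutator D)) ?_ Nat.card_pos
  rw [h2]
  exact Nat.mul_le_mul_right _ h1

omit [Finite D] in
theorem gb_cases {A : Subgroup D} (hi : A.index = 2) {t : D} (ht : t ∉ A) (g : D) :
    g ∈ A ∨ ∃ a ∈ A, g = a * t := by
  by_cases h : g ∈ A
  · exact Or.inl h
  · exact Or.inr ⟨g * t⁻¹, (A.mul_mem_iff_of_index_two hi).2 (by simp [h, ht]), by simp⟩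

/-- The commutator map on an abelian subgroup of index two. -/
def gbHom {A : Subgroup D} (hi : A.index = 2) (hab : ∀ x ∈ A, ∀ y ∈ A, x * y = y * x) (t : D) :
    A →* D :=
  MonoidHom.mk' (fun a => t * a * t⁻¹ * a.1⁻¹) fun a b => by
    have h := (A.normal_of_index_eq_two hi).conj_mem _ b.2 t
    calc _ = t * a * t⁻¹ * (t * b * t⁻¹ * b.1⁻¹ * a.1⁻¹) := by simp [mul_assoc]
      _ = _ := by rw [hab _ (mul_mem h (inv_mem b.2)) _ (inv_mem a.2)]; simp only [mul_assoc]

theorem eqns_GB : True := by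
  have := @gbHom.eq_1.{0}
  trivial

omit [Finite D] in
theorem gb_range {A : Subgroup D} (hi : A.index = 2) (hab : ∀ x ∈ A, ∀ y ∈ A, x * y = y * x)
    {t : D} (ht : t ∉ A) : (gbHom hi hab t).range = commutator D := by
  have hA := A.normal_of_index_eq_two hi
  refine le_antisymm (by rintro _ ⟨a, rfl⟩; exact gb_comm _ _) ?_
  have h1 : ∀ a ∈ A, ∀ g, g * a * g⁻¹ * a⁻¹ ∈ (gbHom hi hab t).range := fun a ha g => by
    rcases gb_cases hi ht g with h | ⟨b, hb, rfl⟩
    · rw [hab g h a ha]; simp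
    · refine ⟨⟨a, ha⟩, ?_⟩
      change t * a * t⁻¹ * a⁻¹ = _
      calc _ = b * b⁻¹ * (t * a * t⁻¹) * a⁻¹ := by group
        _ = _ := by rw [mul_assoc b, hab _ (inv_mem hb) _ (hA.conj_mem _ ha t)]; group
  rw [commutator_def, Subgroup.commutator_le]
  intro g _ u _
  rw [commutatorElement_def]
  rcases gb_cases hi ht u with h | ⟨b, hb, rfl⟩
  · exact h1 u h g
  rcases gb_cases hi ht g with h | ⟨a, ha, rfl⟩
  · have := inv_mem (h1 g h (b * t))
    convert this using 1
    group
  · have := h1 _ (mul_mem hb (inv_mem ha)) (a * t)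
    convert this using 1
    group

/-- An abelian subgroup of index two in a non-abelian group. -/
theorem mem_comm_of_ab_two {A : Subgroup D} (hi : A.index = 2)
    (hab : ∀ x ∈ A, ∀ y ∈ A, x * y = y * x) {t : D} (ht : t ∉ A) {w : D} :
    w ∈ commutator D ↔ ∃ a ∈ A, w = t * a * t⁻¹ * a⁻¹ := by
  rw [← gb_range hi hab ht]
  exact ⟨fun ⟨a, h⟩ => ⟨a, a.2, h.symm⟩, fun ⟨a, ha, h⟩ => ⟨⟨a, ha⟩, h.symm⟩⟩

theorem mem_center_of_ab_two {A : Subgroup D} (hi : A.index = 2)
    (hab : ∀ x ∈ A, ∀ y ∈ A, x * y = y * x) (hn : ¬ ∀ x y : D, x * y = y * x) {t : D} (ht : t ∉ A)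
    {z : D} : z ∈ center D ↔ z ∈ A ∧ t * z = z * t := by
  rw [Subgroup.mem_center_iff]
  refine ⟨fun h => ⟨by_contra fun hz => hn fun x y => ?_, h t⟩, fun h g => ?_⟩
  · have h1 : ∀ a ∈ A, ∀ y, a * y = y * a := fun a ha y => by
      rcases gb_cases hi hz y with h' | ⟨b, hb, rfl⟩
      · exact hab a ha y h'
      · rw [← mul_assoc, hab a ha b hb, mul_assoc, h a, mul_assoc]
    rcases gb_cases hi hz x with h' | ⟨b, hb, rfl⟩
    · exact h1 x h' y
    · rw [mul_assoc, ← h y, ← mul_assoc, h1 b hb y, mul_assoc]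
  · rcases gb_cases hi ht g with h' | ⟨b, hb, rfl⟩
    · exact hab g h' z h.1
    · rw [mul_assoc, h.2, ← mul_assoc, hab b hb z h.1, mul_assoc]

omit [Finite D] in
theorem gb_exists {A : Subgroup D} (hi : A.index = 2) : ∃ t, t ∉ A := by
  by_contra h
  push Not at h
  rw [(Subgroup.eq_top_iff' A).2 h, Subgroup.index_top] at hi
  omega

theorem card_of_ab_two {A : Subgroup D} (hi : A.index = 2) (hab : ∀ x ∈ A, ∀ y ∈ A, x * y = y * x)
    (hn : ¬ ∀ x y : D, x * y = y * x) :
    Nat.card A = Nat.card (commutator D) * Nat.card (center D) := by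
  obtain ⟨t, ht⟩ := gb_exists hi
  have h1 : (gbHom hi hab t).ker = (center D).subgroupOf A := by
    ext a
    rw [Subgroup.mem_subgroupOf, mem_center_of_ab_two hi hab hn ht, MonoidHom.mem_ker]
    change t * a * t⁻¹ * a.1⁻¹ = 1 ↔ _
    rw [mul_inv_eq_one, mul_inv_eq_iff_eq_mul]
    exact ⟨fun h => ⟨a.2, h⟩, fun h => h.2⟩
  rw [← (gbHom hi hab t).ker.index_mul_card, Subgroup.index_ker, gb_range hi hab ht, h1,
    Nat.card_congr (Subgroup.subgroupOfEquivOfLe fun z hz =>
      ((mem_center_of_ab_two hi hab hn ht).1 hz).1).toEquiv]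

theorem cc_of_not_mem {A : Subgroup D} (hi : A.index = 2) (hab : ∀ x ∈ A, ∀ y ∈ A, x * y = y * x)
    (hn : ¬ ∀ x y : D, x * y = y * x) {t : D} (ht : t ∉ A) : cc t = 2 * Nat.card (center D) := by
  have h1 : (center D).subgroupOf (centralizer {t}) = A.subgroupOf (centralizer {t}) := by
    ext a
    rw [Subgroup.mem_subgroupOf, Subgroup.mem_subgroupOf, mem_center_of_ab_two hi hab hn ht]
    exact and_iff_left (mem_cen.1 a.2).symm
  have h2 : (A.subgroupOf (centralizer {t})).index = 2 :=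
    Subgroup.index_eq_two_iff.2 ⟨⟨t, mem_cen.2 rfl⟩, fun b => by
      simp only [Subgroup.mem_subgroupOf, Subgroup.coe_mul, A.mul_mem_iff_of_index_two hi, ht]
      by_cases h : b.1 ∈ A <;> simp [h]⟩
  rw [cc, ← (A.subgroupOf (centralizer {t})).index_mul_card, h2, ← h1,
    Nat.card_congr (Subgroup.subgroupOfEquivOfLe (Subgroup.center_le_centralizer _)).toEquiv]

/-- A subgroup is abelian if a subgroup of its centre has index at most two. -/
theorem ab_of_index_two {C Z : Subgroup D} (hZ : Z ≤ C) (hc : ∀ z ∈ Z, ∀ x ∈ C, z * x = x * z)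
    (hi : Nat.card C ≤ 2 * Nat.card Z) : ∀ x ∈ C, ∀ y ∈ C, x * y = y * x := by
  intro x hx y hy
  by_cases h1 : x ∈ Z
  · exact hc x h1 y hy
  by_cases h2 : y ∈ Z
  · exact (hc y h2 x hx).symm
  have h3 := (Z.subgroupOf C).index_mul_card
  rw [Nat.card_congr (Subgroup.subgroupOfEquivOfLe hZ).toEquiv] at h3
  have h4 : (Z.subgroupOf C).index ≤ 2 := Nat.le_of_mul_le_mul_right (h3 ▸ hi) Nat.card_pos
  have h5 : (Z.subgroupOf C).index ≠ 1 := fun h =>
    h1 (Subgroup.mem_subgroupOf.1 ((Subgroup.index_eq_one.1 h).ge (Subgroup.mem_top ⟨x, hx⟩)))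
  have h6 : (Z.subgroupOf C).index ≠ 0 := Subgroup.index_ne_zero_of_finite
  have h7 : x * y ∈ Z := ((Z.subgroupOf C).mul_mem_iff_of_index_two (by omega)
    (a := ⟨x, hx⟩) (b := ⟨y, hy⟩)).2 (iff_of_false h1 h2)
  exact mul_left_cancel (a := x) (by rw [← hc _ h7 x hx, mul_assoc])

theorem gb_four (hD : IsPGroup 2 D) (N : Subgroup D) [N.Normal] (h : ¬ IsCyclic (D ⧸ N)) :
    4 ≤ N.index := by
  obtain ⟨k, hk⟩ := hD.index N
  by_contra h4
  have h5 : k ≤ 1 := by
    by_contra h5
    exact h4 (hk ▸ Nat.pow_le_pow_right two_pos (show 2 ≤ k by omega))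
  exact h (isCyclic_of_card_dvd_prime (p := 2) (by
    rw [← Subgroup.index_eq_card, hk]; exact pow_dvd_pow 2 h5))

theorem four_le_index_center (hD : IsPGroup 2 D) (hn : ¬ ∀ x y : D, x * y = y * x) :
    4 ≤ (center D).index ∧ 4 ≤ (commutator D).index := by
  refine ⟨gb_four hD _ fun h => hn (commutative_of_cyclic_center_quotient
    (QuotientGroup.mk' (center D)) (QuotientGroup.ker_mk' _).le), gb_four hD _ fun h => hn ?_⟩
  obtain ⟨q, hq⟩ := h.exists_generator
  obtain ⟨g, rfl⟩ := QuotientGroup.mk_surjective q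
  have := hD.isNilpotent
  have h1 : zpowers g = ⊤ := by
    by_contra h1
    obtain ⟨M, hM, h2⟩ := (eq_top_or_exists_le_coatom (zpowers g)).resolve_left h1
    have : M.Normal := Subgroup.NormalizerCondition.normal_of_coatom M
      Group.normalizerCondition_of_isNilpotent hM
    have h3 : ∀ x, x ∉ M → zpowers x ⊔ M = ⊤ := fun x hx => hM.2 _ (lt_of_le_of_ne le_sup_right
      fun e => hx (e ▸ Subgroup.mem_sup_left (Subgroup.mem_zpowers x)))
    have h4 : commutator D ≤ M := by
      rw [commutator_def, Subgroup.commutator_le]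
      intro x _ y _
      rw [← QuotientGroup.eq_one_iff, ← QuotientGroup.mk'_apply, map_commutatorElement,
        commutatorElement_eq_one_iff_commute]
      by_cases hx : x ∈ M
      · rw [QuotientGroup.mk'_apply, (QuotientGroup.eq_one_iff x).2 hx]
        exact Commute.one_left _
      obtain ⟨_, ⟨n, rfl⟩, m, hm, rfl⟩ := Subgroup.mem_sup_of_normal_right.1
        ((h3 x hx).ge (Subgroup.mem_top y))
      rw [map_mul, map_zpow, QuotientGroup.mk'_apply M m, (QuotientGroup.eq_one_iff m).2 hm, mul_one]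
      exact (Commute.refl _).zpow_right n
    refine hM.1 ((Subgroup.eq_top_iff' M).2 fun x => ?_)
    obtain ⟨n, hn⟩ := hq x
    exact (M.mul_mem_cancel_left (inv_mem (h2 ⟨n, rfl⟩))).1 (h4 (QuotientGroup.eq.1 hn))
  intro x y
  obtain ⟨n, rfl⟩ := h1.ge (Subgroup.mem_top x)
  obtain ⟨m, rfl⟩ := h1.ge (Subgroup.mem_top y)
  exact zpow_mul_comm g n m

theorem gb_lt {x : D} (hx : x ∉ center D) : 2 * Nat.card (center D) ≤ cc x := by
  have h1 := Subgroup.card_dvd_of_le (Subgroup.center_le_centralizer ({x} : Set D))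
  obtain ⟨k, hk⟩ := h1
  have h2 : k ≠ 1 := fun h => hx ((Subgroup.eq_of_le_of_card_ge
    (Subgroup.center_le_centralizer ({x} : Set D)) (by rw [hk, h, mul_one])).ge (mem_cen.2 rfl))
  have h3 : k ≠ 0 := fun h => Nat.card_pos.ne' (by rw [hk, h, mul_zero])
  rw [cc, hk, mul_comm]
  exact Nat.mul_le_mul_left _ (by omega)

omit [Finite D] in
theorem gb_nc (h : (center D).index ≠ 1) : (∃ x, x ∉ center D) ∧ ¬ ∀ x y : D, x * y = y * x := by
  have h1 : ¬ ∀ x, x ∈ center D := fun h' =>
    h (Subgroup.index_eq_one.2 ((Subgroup.eq_top_iff' _).2 h'))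
  exact ⟨not_forall.1 h1, fun h' => h1 fun x => Subgroup.mem_center_iff.2 fun g => h' g x⟩

/-- The subgroup generated by the centre and one element is central in the centraliser. -/
theorem gb_ab {x : D} (hx : x ∉ center D) (h : cc x ≤ 4 * Nat.card (center D)) :
    ∀ a ∈ centralizer ({x} : Set D), ∀ b ∈ centralizer ({x} : Set D), a * b = b * a := by
  have h1 : center D < center D ⊔ zpowers x := lt_of_le_of_ne le_sup_left fun e =>
    hx (e ▸ Subgroup.mem_sup_right (Subgroup.mem_zpowers x))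
  refine ab_of_index_two (Z := center D ⊔ zpowers x) (sup_le (Subgroup.center_le_centralizer _)
    (Subgroup.zpowers_le.2 (mem_cen.2 rfl))) (fun z hz y hy => ?_) (h.trans ?_)
  · exact mem_cen.1 (sup_le (Subgroup.center_le_centralizer _)
      (Subgroup.zpowers_le.2 (mem_cen.2 (mem_cen.1 hy).symm)) hz)
  · obtain ⟨k, hk⟩ := Subgroup.card_dvd_of_le h1.le
    have h2 : k ≠ 1 := fun h => h1.ne (Subgroup.eq_of_le_of_card_ge h1.le (by rw [hk, h, mul_one]))
    have h3 : k ≠ 0 := fun h => Nat.card_pos.ne' (by rw [hk, h, mul_zero])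
    rw [hk]
    nlinarith [show 2 ≤ k by omega]

theorem gb_index {x : D} (h : 2 * cc x = Nat.card D) : (centralizer ({x} : Set D)).index = 2 :=
  Nat.eq_of_mul_eq_mul_right Nat.card_pos ((Subgroup.index_mul_card _).trans h.symm)

theorem card_comm_of_index_center (hD : IsPGroup 2 D) (h : (center D).index = 4) :
    Nat.card (commutator D) = 2 := by
  obtain ⟨⟨x, hx⟩, hn⟩ := gb_nc (D := D) (by omega)
  have h1 := (center D).index_mul_card
  have h2 := two_mul_cc_le hx
  have h3 := gb_lt hx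
  rw [h] at h1
  have h4 := card_of_ab_two (gb_index (x := x) (by omega)) (gb_ab hx (by omega)) hn
  exact Nat.eq_of_mul_eq_mul_right (Nat.card_pos (α := center D)) (by rw [← h4, ← cc]; omega)

theorem comm_le_center (hD : IsPGroup 2 D) (h : Nat.card (commutator D) = 2) :
    commutator D ≤ center D := by
  intro w hw
  obtain ⟨y, -, hy⟩ := (Nat.card_eq_two_iff' (1 : commutator D)).1 h
  refine Subgroup.mem_center_iff.2 fun g => ?_
  by_cases h1 : w = 1
  · simp [h1]
  have h2 := (hy ⟨_, (inferInstance : (commutator D).Normal).conj_mem w hw g⟩ fun e =>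
    h1 (by simpa using e)).trans (hy ⟨w, hw⟩ fun e => h1 (by simpa using e)).symm
  exact mul_inv_eq_iff_eq_mul.1 (congrArg Subtype.val h2)

theorem two_mul_cc (h : Nat.card (commutator D) = 2) {v : D} (hv : v ∉ center D) :
    2 * cc v = Nat.card D := by
  refine le_antisymm (two_mul_cc_le hv) ?_
  rw [← (centralizer ({v} : Set D)).index_mul_card, ← h]
  exact Nat.mul_le_mul_right _ (gb_index_le v fun g => gb_comm g v)

theorem index_center_ne_eight (hD : IsPGroup 2 D) (h : Nat.card (commutator D) = 2) :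
    (center D).index ≠ 8 := by
  intro h8
  obtain ⟨⟨x, hx⟩, hn⟩ := gb_nc (D := D) (by omega)
  have h1 := (center D).index_mul_card
  have h2 := two_mul_cc h hx
  rw [h8] at h1
  have h4 := card_of_ab_two (gb_index h2) (gb_ab hx (by omega)) hn
  have h5 := Nat.card_pos (α := center D)
  rw [h, ← cc] at h4
  omega

end OL5
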