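import Mathlib
import Cfsg.Agent.Lib.OL5.GB

set_option autoImplicit false

namespace OL5

open H86 (Cen Nor)
open Subgroup (zpowers center centralizer)

section Abs

variable {D : Type*} [Group D] [Finite D]

theorem gc_coset {u : D} (hu : u ∉ center D) (h : cc u ≤ 2 * Nat.card (center D)) {x : D}
    (hx : x * u = u * x) : x ∈ center D ∨ x * u⁻¹ ∈ center D := by
  have hle : center D ≤ centralizer ({u} : Set D) := fun z hz =>
    mem_cen.2 (Subgroup.mem_center_iff.1 hz u).symm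
  have e := ((center D).subgroupOf (centralizer ({u} : Set D))).card_mul_index
  rw [Nat.card_congr (Subgroup.subgroupOfEquivOfLe hle).toEquiv] at e
  have huC : u ∈ centralizer ({u} : Set D) := mem_cen.2 rfl
  have h1 : ((center D).subgroupOf (centralizer ({u} : Set D))).index ≠ 1 := fun h1 => hu (by
    have h2 : (⟨u, huC⟩ : centralizer ({u} : Set D)) ∈
        (center D).subgroupOf (centralizer ({u} : Set D)) := by
      rw [Subgroup.index_eq_one.1 h1]; trivial
    exact h2)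
  have h0 : ((center D).subgroupOf (centralizer ({u} : Set D))).index ≠ 0 :=
    Subgroup.index_ne_zero_of_finite
  have h2 : ((center D).subgroupOf (centralizer ({u} : Set D))).index = 2 := by
    have h3 : Nat.card (center D) * ((center D).subgroupOf (centralizer ({u} : Set D))).index ≤
        Nat.card (center D) * 2 := by rw [e, mul_comm]; exact h
    have := Nat.le_of_mul_le_mul_left h3 Nat.card_pos
    omega
  by_cases hxZ : x ∈ center D
  · exact Or.inl hxZ
  · right
    exact (Subgroup.mul_mem_iff_of_index_two h2 (a := ⟨x, mem_cen.2 hx⟩) (b := ⟨u, huC⟩⁻¹)).2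
      ⟨fun h => absurd h hxZ, fun h => absurd (inv_mem_iff.1 h) hu⟩

omit [Finite D] in
theorem gc_comm (x y : D) : x * y * x⁻¹ * y⁻¹ ∈ commutator D :=
  Subgroup.commutator_mem_commutator (Subgroup.mem_top x) (Subgroup.mem_top y)

theorem gc_c1 (hD : IsPGroup 2 D) (h : C1 D) : ∃ u z : D, z ≠ 1 ∧ z ^ 2 = 1 ∧ z ∈ center D ∧
    (∀ x y : D, x * y * x⁻¹ * y⁻¹ = 1 ∨ x * y * x⁻¹ * y⁻¹ = z) ∧ u ∉ center D ∧
    (∀ x, x * u = u * x → x ∈ center D ∨ x * u⁻¹ ∈ center D) ∧ Nat.card D = 2 * cc u ∧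
    ((∃ c ∈ center D, z = c ^ 2) ∨ ∀ x, x * u = u * x → x ^ 2 = 1 → x ∈ center D) := by
  obtain ⟨h1, h4⟩ := h
  obtain ⟨⟨z, hz⟩, z1, zu⟩ := (Nat.card_eq_two_iff' (1 : commutator D)).1 h1
  have z1' : z ≠ 1 := fun e => z1 (Subtype.ext e)
  have z2 : z ^ 2 = 1 := by
    have := pow_card_eq_one' (x := (⟨z, hz⟩ : commutator D))
    rw [h1] at this
    exact congrArg Subtype.val this
  have zc : z ∈ center D := comm_le_center hD h1 hz
  have cm : ∀ x y : D, x * y * x⁻¹ * y⁻¹ = 1 ∨ x * y * x⁻¹ * y⁻¹ = z := fun x y => by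
    by_cases e : x * y * x⁻¹ * y⁻¹ = 1
    · exact Or.inl e
    · exact Or.inr (congrArg Subtype.val (zu ⟨_, gc_comm x y⟩ fun e' => e (congrArg Subtype.val e')))
  have e4 := (center D).card_mul_index
  rw [h4] at e4
  have cen : ∀ u ∉ center D, ∀ x, x * u = u * x → x ∈ center D ∨ x * u⁻¹ ∈ center D :=
    fun u hu x hx => gc_coset hu (by have := two_mul_cc h1 hu; omega) hx
  obtain ⟨x, hx⟩ : ∃ x, x ∉ center D := by
    by_contra hc
    push Not at hc
    rw [(Subgroup.eq_top_iff' _).2 hc, Subgroup.index_top] at h4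
    omega
  obtain ⟨y, hy⟩ : ∃ y, y * x ≠ x * y := by
    by_contra hc
    push Not at hc
    exact hx (Subgroup.mem_center_iff.2 hc)
  have hyZ : y ∉ center D := fun e => hy (Subgroup.mem_center_iff.1 e x).symm
  have hxy : x * y ∉ center D := fun e => hy (by
    have := Subgroup.mem_center_iff.1 e x
    rw [mul_assoc] at this
    exact (mul_left_cancel this).symm)
  suffices H : ∃ u ∉ center D, (∃ c ∈ center D, z = c ^ 2) ∨
      ∀ x, x * u = u * x → x ^ 2 = 1 → x ∈ center D by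
    obtain ⟨u, hu, H⟩ := H
    exact ⟨u, z, z1', z2, zc, cm, hu, cen u hu, (two_mul_cc h1 hu).symm, H⟩
  by_contra hc
  push Not at hc
  have key : ∀ u ∉ center D, ∃ c ∈ center D, (c * u) ^ 2 = 1 := fun u hu => by
    obtain ⟨w, hw, w2, wZ⟩ := (hc u hu).2
    exact ⟨_, (cen u hu w hw).resolve_left wZ, by rwa [inv_mul_cancel_right]⟩
  obtain ⟨c1, m1, e1⟩ := key x hx
  obtain ⟨c2, m2, e2⟩ := key y hyZ
  obtain ⟨c3, m3, e3⟩ := key _ hxy
  have mc : c3 * (c1 * c2)⁻¹ ∈ center D := mul_mem m3 (inv_mem (mul_mem m1 m2))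
  have f1 : c1 * x * (c2 * y) = c1 * c2 * (x * y) := by
    rw [mul_assoc c1 x, ← mul_assoc x c2, Subgroup.mem_center_iff.1 m2 x]; group
  have f2 : c2 * y * (c1 * x) = c1 * c2 * (y * x) := by
    calc c2 * y * (c1 * x) = c2 * (y * c1) * x := by group
      _ = (c2 * c1) * (y * x) := by rw [Subgroup.mem_center_iff.1 m1 y]; group
      _ = _ := by rw [Subgroup.mem_center_iff.1 m1 c2]
  have f3 : c3 * (x * y) = c3 * (c1 * c2)⁻¹ * (c1 * x * (c2 * y)) := by rw [f1]; group
  have i1 : (c1 * x)⁻¹ = c1 * x := inv_eq_of_mul_eq_one_left (by rw [← pow_two, e1])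
  have i2 : (c2 * y)⁻¹ = c2 * y := inv_eq_of_mul_eq_one_left (by rw [← pow_two, e2])
  rcases cm (c1 * x) (c2 * y) with e | e
  · rw [mul_inv_eq_one, mul_inv_eq_iff_eq_mul, f1, f2] at e
    exact hy (mul_left_cancel e).symm
  · rw [i1, i2] at e
    rw [f3] at e3
    generalize c3 * (c1 * c2)⁻¹ = c at mc e3
    have hcm : Commute c (c1 * x * (c2 * y)) := (Subgroup.mem_center_iff.1 mc _).symm
    rw [hcm.mul_pow, pow_two (c1 * x * (c2 * y)), ← mul_assoc (c1 * x * (c2 * y)), e] at e3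
    exact (hc x hx).1 c⁻¹ (inv_mem mc) (by rw [inv_pow]; exact eq_inv_of_mul_eq_one_right e3)

theorem gc_g4 (h : G4 D) : ∃ u : D, u ∉ center D ∧ cc u = 8 := by
  obtain ⟨h32, hc, h4⟩ := h
  have e := (commutator D).card_mul_index
  rw [hc, h4, h32, ← hc] at e
  obtain ⟨x, hx⟩ : ∃ x, x ∉ center D := by
    by_contra hc
    push Not at hc
    rw [(Subgroup.eq_top_iff' _).2 hc, Subgroup.card_top] at h4
    omega
  have hn : ¬ ∀ x y : D, x * y = y * x := fun h => hx (Subgroup.mem_center_iff.2 fun g => h g x)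
  have h8 : 8 ≤ cc x := by have := index_le_cc x; omega
  have h16 := two_mul_cc_le hx
  have hd : cc x ∣ 32 := h32 ▸ Subgroup.card_subgroup_dvd_card _
  by_cases e8 : cc x = 8
  · exact ⟨x, hx, e8⟩
  have e16 : cc x = 16 := by
    have : cc x ≤ 16 := by omega
    generalize cc x = n at *
    interval_cases n <;> first | rfl | omega
  have hi : (centralizer ({x} : Set D)).index = 2 := by
    have := (centralizer ({x} : Set D)).card_mul_index
    rw [h32, show Nat.card (centralizer ({x} : Set D)) = 16 from e16] at this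
    omega
  have hle : center D ≤ centralizer ({x} : Set D) := fun z hz =>
    mem_cen.2 (Subgroup.mem_center_iff.1 hz x).symm
  have hab : ∀ a ∈ centralizer ({x} : Set D), ∀ b ∈ centralizer ({x} : Set D), a * b = b * a := by
    refine ab_of_index_two (Z := centralizer ({x} : Set D) ⊓
      centralizer (centralizer ({x} : Set D) : Set D)) inf_le_left
      (fun z hz y hy => (hz.2 y hy).symm) ?_
    have l1 : center D ≤ centralizer ({x} : Set D) ⊓
        centralizer (centralizer ({x} : Set D) : Set D) :=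
      le_inf hle (Subgroup.center_le_centralizer _)
    have d1 := Subgroup.card_dvd_of_le l1
    have n1 : Nat.card (centralizer ({x} : Set D) ⊓
        centralizer (centralizer ({x} : Set D) : Set D) : Subgroup D) ≠ 4 := fun e => hx (by
      rw [Subgroup.eq_of_le_of_card_ge l1 (by rw [e, h4])]
      exact ⟨mem_cen.2 rfl, fun y hy => mem_cen.1 hy⟩)
    have p1 : 0 < Nat.card (centralizer ({x} : Set D) ⊓
        centralizer (centralizer ({x} : Set D) : Set D) : Subgroup D) := Nat.card_pos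
    rw [h4] at d1
    rw [show Nat.card (centralizer ({x} : Set D)) = 16 from e16]
    omega
  obtain ⟨u, hu⟩ : ∃ u, u ∉ centralizer ({x} : Set D) := by
    by_contra hc
    push Not at hc
    rw [(Subgroup.eq_top_iff' _).2 hc, Subgroup.index_top] at hi
    omega
  exact ⟨u, fun e => hu (hle e), by rw [cc_of_not_mem hi hab hn hu, h4]⟩

theorem gc_onto (h : G4 D) {u : D} (h8 : cc u = 8) {z : D} (hz : z ∈ center D) :
    ∃ s, s * u * s⁻¹ = z * u := by
  obtain ⟨h32, hc, h4⟩ := h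
  have cl : ∀ g : D, g * u * g⁻¹ * u⁻¹ ∈ center D := fun g => hc ▸ gc_comm g u
  let f : D →* D := MonoidHom.mk' (fun g => g * u * g⁻¹ * u⁻¹) fun g k => by
    calc g * k * u * (g * k)⁻¹ * u⁻¹ = g * (k * u * k⁻¹ * u⁻¹) * (u * g⁻¹ * u⁻¹) := by group
      _ = k * u * k⁻¹ * u⁻¹ * g * (u * g⁻¹ * u⁻¹) := by rw [Subgroup.mem_center_iff.1 (cl k) g]
      _ = k * u * k⁻¹ * u⁻¹ * (g * u * g⁻¹ * u⁻¹) := by group
      _ = _ := (Subgroup.mem_center_iff.1 (cl k) _).symm
  have hk : f.ker = centralizer ({u} : Set D) := by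
    ext g
    rw [MonoidHom.mem_ker, mem_cen]
    change g * u * g⁻¹ * u⁻¹ = 1 ↔ _
    rw [mul_inv_eq_one, mul_inv_eq_iff_eq_mul]
  have e := f.ker.card_mul_index
  rw [Subgroup.index_ker, hk, show Nat.card (centralizer ({u} : Set D)) = 8 from h8, h32] at e
  have hr : f.range = center D := Subgroup.eq_of_le_of_card_ge
    (by rintro _ ⟨g, rfl⟩; exact cl g) (by omega)
  rw [← hr] at hz
  obtain ⟨s, rfl⟩ := hz
  exact ⟨s, (inv_mul_cancel_right _ _).symm⟩

end Abs

variable {G : Type*} [Group G] [Finite G] {P : Subgroup G}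

theorem c1_data (hP : IsPGroup 2 P) (h : C1 P) : ∃ u z, C1d P u z := by
  obtain ⟨u, z, z1, z2, zc, cm, nu, cen, two, alt⟩ := gc_c1 hP h
  refine ⟨u, z, u.2, z.2, fun e => z1 (Subtype.ext e), congrArg Subtype.val z2,
    (mem_center_iff z).1 zc, fun x hx y hy => ?_, fun e => nu ((mem_center_iff u).2 e),
    fun x hx e => ?_, by rw [← cc_coe]; exact two, ?_⟩
  · exact (cm ⟨x, hx⟩ ⟨y, hy⟩).imp (congrArg Subtype.val) (congrArg Subtype.val)
  · exact (cen ⟨x, hx⟩ (Subtype.ext e)).imp (mem_center_iff _).1 (mem_center_iff _).1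
  · rcases alt with ⟨c, hc, e⟩ | alt
    · exact Or.inl ⟨c, ⟨c.2, (mem_center_iff c).1 hc⟩, congrArg Subtype.val e⟩
    · exact Or.inr fun x hx e e2 =>
        (mem_center_iff _).1 (alt ⟨x, hx⟩ (Subtype.ext e) (Subtype.ext e2))

theorem g4_data (h : G4 P) : ∃ u, G4d P u := by
  obtain ⟨u, nu, h8⟩ := gc_g4 h
  refine ⟨u, u.2, fun x hx y hy => ?_, fun e => nu ((mem_center_iff u).2 e), fun x hx e => ?_,
    by rw [← cc_coe]; exact h8, by rw [← card_center]; exact h.2.2, fun z hz => ?_⟩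
  · exact (mem_center_iff _).1 (h.2.1 ▸ gc_comm (⟨x, hx⟩ : P) ⟨y, hy⟩)
  · exact (gc_coset nu (by rw [h8, h.2.2]) (x := ⟨x, hx⟩) (Subtype.ext e)).imp
      (mem_center_iff _).1 (mem_center_iff _).1
  · obtain ⟨s, hs⟩ := gc_onto h h8 (z := ⟨z, hz.1⟩) ((mem_center_iff _).2 hz.2)
    exact ⟨s, s.2, congrArg Subtype.val hs⟩

end OL5
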