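import Mathlib
import Cfsg.Agent.Lib.OL5.GB
import Cfsg.Agent.S0113
import Cfsg.Agent.S0115

set_option autoImplicit false

namespace OL5

open H86 (Cen Nor)
open Subgroup (zpowers center centralizer)

variable {D : Type*} [Group D] [Finite D]

omit [Finite D] in
theorem gt1_bot (h : ∀ x y : D, x * y = y * x) : commutator D = ⊥ := by
  rw [commutator, Subgroup.commutator_eq_bot_iff_le_centralizer]
  exact fun x _ y _ => h y x

theorem gt_two (hD : IsPGroup 2 D) (hc : Nat.card D ≤ 32) (h : Nat.card (commutator D) = 2) :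
    C1 D ∨ Easy D := by
  have hn : ¬ ∀ x y : D, x * y = y * x := fun e => by
    rw [gt1_bot e, Subgroup.card_bot] at h
    omega
  have h4 := (four_le_index_center hD hn).1
  have h8 := index_center_ne_eight hD h
  by_cases e4 : (center D).index = 4
  · exact Or.inl ⟨h, e4⟩
  right
  obtain ⟨n, hn'⟩ := hD.index (center D)
  have h16 : 16 ≤ (center D).index := by
    rw [hn'] at h4 h8 e4 ⊢
    have : 4 ≤ n := by
      by_contra hlt
      have : n < 4 := by omega
      interval_cases n <;> omega
    exact Nat.pow_le_pow_right (show 0 < 2 by norm_num) this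
  have hZ : 2 ≤ Nat.card (center D) := h ▸ Subgroup.card_le_of_le (comm_le_center hD h)
  have e := (center D).card_mul_index
  have hZ2 : Nat.card (center D) = 2 := by
    by_contra hne
    have : 3 * 16 ≤ Nat.card (center D) * (center D).index := Nat.mul_le_mul (by omega) h16
    omega
  have h32 : Nat.card D = 32 := by rw [hZ2] at e; omega
  have sqZ : ∀ z ∈ center D, z ^ 2 = 1 := fun z hz => by
    have := pow_card_eq_one' (x := (⟨z, hz⟩ : center D))
    rw [hZ2] at this
    exact congrArg Subtype.val this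
  obtain ⟨u, hu⟩ : ∃ u : D, u ^ 2 ≠ 1 := by
    by_contra hc
    push Not at hc
    have inv : ∀ x : D, x⁻¹ = x := fun x => inv_eq_of_mul_eq_one_left (by rw [← pow_two, hc])
    exact hn fun x y => by rw [← inv (x * y), mul_inv_rev, inv, inv]
  have c16 : ∀ v : D, v ^ 2 ≠ 1 → cc v = 16 := fun v hv => by
    have := two_mul_cc h (v := v) fun e => hv (sqZ v e)
    omega
  have o4 : 4 ≤ orderOf u := by
    obtain ⟨k, hk⟩ := (IsPGroup.iff_orderOf.1 hD) u
    have : 2 ≤ k := by
      by_contra hlt
      refine hu (orderOf_dvd_iff_pow_eq_one.1 ?_)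
      have : k < 2 := by omega
      rw [hk]
      interval_cases k <;> norm_num
    rw [hk]
    exact Nat.pow_le_pow_right (show 0 < 2 by norm_num) this
  have ei := (commutator D).card_mul_index
  rw [h, h32] at ei
  refine ⟨u, by rw [c16 u hu]; omega, by rw [c16 u hu]; omega, fun v hv => Or.inl ?_⟩
  rw [c16 u hu, c16 v fun e => hu (by rwa [← orderOf_dvd_iff_pow_eq_one, hv,
    orderOf_dvd_iff_pow_eq_one] at e)]

theorem gt_max (hD : IsPGroup 2 D) (hc : 16 ≤ Nat.card D) (h : (commutator D).index = 4) :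
    ∃ (k : ℕ) (a b t : D), AVc k a b t := by
  have hna : commutator D ≠ ⊥ := fun e => by
    rw [e, Subgroup.index_bot] at h
    omega
  have hnc : ¬ IsCyclic (D ⧸ commutator D) := fun e =>
    H5.not_isCyclic_of_commutator_ne_bot hna (H5.isCyclic_of_isCyclic_quotient_commutator hD e)
  have hexp : Monoid.exponent (D ⧸ commutator D) = 2 :=
    (not_isCyclic_iff_exponent_eq_prime Nat.prime_two h).1 hnc
  have hsq : ∀ x : D, x * x ∈ commutator D := fun x => by
    rw [← QuotientGroup.eq_one_iff, QuotientGroup.mk_mul, ← pow_two, ← hexp,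
      Monoid.pow_exponent_eq_one]
  obtain ⟨a, t, m, hm, ha, hi, ht, hr⟩ := H5.exists_gens_of_index_four hD h hsq hna
  have hta : t * a * t⁻¹ = a⁻¹ ∨ (2 ≤ m ∧ t * a * t⁻¹ = a⁻¹ * a ^ 2 ^ m) := by
    rcases hr with r | r | r
    · exact Or.inl r.2
    · exact Or.inl r.2
    · exact Or.inr ⟨r.1, r.2.2⟩
  have hZ := H5.center_eq_zpowers_half ha hta hm hi ht
  have sqZ : ∀ z ∈ center D, z ^ 2 = 1 := fun z hz => by
    rw [hZ] at hz
    obtain ⟨i, rfl⟩ := Subgroup.mem_zpowers_iff.1 hz
    rw [← zpow_natCast, ← zpow_mul, mul_comm, zpow_mul, zpow_natCast, ← pow_mul, ← pow_succ, ← ha,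
      pow_orderOf_eq_one, one_zpow]
  obtain ⟨k, rfl⟩ : ∃ k, m = k + 1 := ⟨m - 1, by omega⟩
  have aZ : a ∉ center D := fun e => by
    have := Nat.le_of_dvd (by norm_num) (orderOf_dvd_of_pow_eq_one (sqZ a e))
    rw [ha, pow_succ, pow_succ] at this
    have : 0 < 2 ^ k := by positivity
    omega
  have e := (zpowers a).card_mul_index
  rw [hi, Nat.card_zpowers] at e
  have hle : zpowers a ≤ centralizer ({a} : Set D) := Subgroup.zpowers_le.2 (mem_cen.2 rfl)
  have hC : zpowers a = centralizer ({a} : Set D) := Subgroup.eq_of_le_of_card_ge hle (by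
    have := two_mul_cc_le aZ
    rw [Nat.card_zpowers]
    unfold cc at this
    omega)
  have hcc : cc a = orderOf a := by rw [cc, ← hC, Nat.card_zpowers]
  refine ⟨k, a, 1, t, ha, hta.imp id fun r => ⟨by omega, r.2⟩, one_pow 2, fun x => ?_,
    by omega, by rw [hcc, ha, h, pow_succ, pow_succ]; omega, fun z hz => ?_⟩
  · rw [← mem_cen, ← hC, Subgroup.mem_zpowers_iff]
    simp only [mul_one, or_self, eq_comm]
  · rw [pow_succ', pow_mul, sqZ z hz, one_pow]

end OL5
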