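import Mathlib
import Cfsg.Agent.Lib.OL5.GB

set_option autoImplicit false

namespace OL5

open H86 (Cen Nor)
open Subgroup (zpowers center centralizer)
open scoped commutatorElement

variable {D : Type*} [Group D] [Finite D]

theorem gt3_lt {H K : Subgroup D} (h : H ≤ K) {g : D} (h1 : g ∈ K) (h2 : g ∉ H) :
    2 * Nat.card H ≤ Nat.card K := by
  obtain ⟨k, hk⟩ := Subgroup.card_dvd_of_le h
  have h3 : k ≠ 1 := fun e => h2 ((Subgroup.eq_of_le_of_card_ge h (by rw [hk, e, mul_one])).ge h1)
  have h4 : k ≠ 0 := fun e => Nat.card_pos.ne' (by rw [hk, e, mul_zero])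
  rw [hk, mul_comm]
  exact Nat.mul_le_mul_left _ (by omega)

theorem gt3_center (hD : IsPGroup 2 D) (N : Subgroup D) [hN : N.Normal] (h : 2 ∣ Nat.card N) :
    ∃ p ∈ N, p ∈ center D ∧ p ≠ 1 := by
  let : MulAction D N := MulAction.compHom N (MulAut.conjNormal (H := N))
  obtain ⟨p, hp, h1⟩ := hD.exists_fixed_point_of_prime_dvd_card_of_fixed_point N h (a := 1)
    fun g => map_one (MulAut.conjNormal g)
  exact ⟨p, p.2, Subgroup.mem_center_iff.2 fun g =>
    mul_inv_eq_iff_eq_mul.1 (congrArg Subtype.val (hp g)), fun e => h1 (Subtype.ext e.symm)⟩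

omit [Finite D] in
theorem gt3_comm {x : D} (hx : ∀ g, g * x * g⁻¹ * x⁻¹ ∈ center D) {w : D} (hw : w ∈ commutator D) :
    w * x = x * w := by
  let φ : D →* D := MonoidHom.mk' (fun g => g * x * g⁻¹ * x⁻¹) fun g k => by
    calc _ = g * (k * x * k⁻¹ * x⁻¹) * (x * g⁻¹ * x⁻¹) := by group
      _ = _ := by
        rw [mul_assoc, ← Subgroup.mem_center_iff.1 (hx k)]
        simp only [mul_assoc]
  have : commutator D ≤ φ.ker := Subgroup.commutator_le.2 fun g _ k _ => by
    rw [MonoidHom.mem_ker, map_commutatorElement, commutatorElement_eq_one_iff_mul_comm]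
    exact Subgroup.mem_center_iff.1 (hx k) _
  exact mul_inv_eq_iff_eq_mul.1 (mul_inv_eq_one.1 (this hw))

theorem gt_three (hc : Nat.card D = 32) (h : Nat.card (commutator D) = 4)
    (hz : Nat.card (center D) = 2) : Easy D := by
  have hD : IsPGroup 2 D := IsPGroup.of_card (n := 5) hc
  have hN : (commutator D).Normal := inferInstance
  have zc : ∀ p ∈ center D, ∀ g, g * p = p * g := fun p hp => Subgroup.mem_center_iff.1 hp
  have z2 : ∀ p ∈ center D, p * p = 1 := fun p hp => by
    have := congrArg Subtype.val (pow_card_eq_one' (x := (⟨p, hp⟩ : center D)))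
    rwa [hz, pow_two] at this
  have zd : center D ≤ commutator D := by
    obtain ⟨p, h1, h2, h3⟩ := gt3_center hD (commutator D) (by omega)
    have := gt3_lt (bot_le : ⊥ ≤ center D ⊓ commutator D) ⟨h2, h1⟩ h3
    rw [Subgroup.card_bot] at this
    exact inf_eq_left.1 (Subgroup.eq_of_le_of_card_ge inf_le_left (by omega))
  have hk : ∀ p ∈ commutator D, ∀ q ∈ commutator D,
      p * q ∈ center D ↔ (p ∈ center D ↔ q ∈ center D) := fun p hp q hq => by
    have h1 := ((center D).subgroupOf (commutator D)).index_mul_card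
    rw [Nat.card_congr (Subgroup.subgroupOfEquivOfLe zd).toEquiv, hz, h] at h1
    exact ((center D).subgroupOf (commutator D)).mul_mem_iff_of_index_two (by omega)
      (a := ⟨p, hp⟩) (b := ⟨q, hq⟩)
  have cd : ∀ w ∈ commutator D, w ∉ center D → ∀ g, g * w = w * g → ∀ w' ∈ commutator D,
      g * w' = w' * g := fun w hw h1 g hg w' hw' => by
    by_cases h2 : w' ∈ center D
    · exact zc _ h2 g
    have := zc _ ((hk _ hw' _ (inv_mem hw)).2 (by simp [h1, h2])) g
    calc _ = g * (w' * w⁻¹) * w := by group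
      _ = _ := by rw [this, mul_assoc, hg]; group
  have i8 : (commutator D).index = 8 := by
    have := (commutator D).index_mul_card
    rw [h] at this
    omega
  have hn := (gb_nc (D := D) fun e => by
    have := (center D).index_mul_card
    rw [hz] at this
    omega).2
  have cz : ∀ p g, g * p * g⁻¹ ∈ center D ↔ p ∈ center D := fun p g =>
    ⟨fun h => by simpa [mul_assoc] using Subgroup.Normal.conj_mem inferInstance _ h g⁻¹,
      fun h => Subgroup.Normal.conj_mem inferInstance _ h g⟩
  obtain ⟨Y, hY⟩ : ∃ Y : Subgroup D, ∀ x, x ∈ Y ↔ ∀ g, g * x * g⁻¹ * x⁻¹ ∈ center D :=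
    ⟨Subgroup.upperCentralSeriesStep (center D), fun x => forall_congr' fun g => by
      rw [← inv_mem_iff, commutatorElement_inv, commutatorElement_def]⟩
  have dY : commutator D ≤ Y := fun w hw => (hY w).2 fun g =>
    (hk _ (hN.conj_mem w hw g) _ (inv_mem hw)).2 (by rw [cz, inv_mem_iff])
  have sY : ∀ x, x * x ∈ Y := fun x => (hY _).2 fun g => by
    have := (hk _ (gb_comm g x) _ (hN.conj_mem _ (gb_comm g x) x)).2 (cz _ _).symm
    convert this using 1
    group
  have Y2 : ∀ x ∈ Y, x * x ∈ center D := fun x hx => Subgroup.mem_center_iff.2 fun g => by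
    have h1 := (hY x).1 hx g
    calc _ = g * x * g⁻¹ * x⁻¹ * (x * (g * x * g⁻¹ * x⁻¹)) * x * g := by group
      _ = _ := by rw [zc _ h1 x, ← mul_assoc, z2 _ h1, one_mul]
  have F2 : ∀ v, v ∉ Y → cc v ≤ 8 := fun v hv => by
    by_contra h1
    obtain ⟨g, hg⟩ := not_forall.1 (mt (hY v).2 hv)
    have h2 := two_mul_cc_le (v := v) fun e => hv (dY (zd e))
    have h3 : cc v = 16 := by
      have : cc v ∣ 32 := hc ▸ Subgroup.card_subgroup_dvd_card _
      have h4 : cc v ≤ 16 := by omega
      generalize cc v = n at *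
      interval_cases n <;> simp_all
    have h4 := gb_index (x := v) (by omega)
    have h5 : ∀ c ∈ centralizer ({v} : Set D), ∀ w ∈ commutator D, c * w = w * c := fun c hc' =>
      cd _ (gb_comm g v) hg c (by
        have e1 := mem_cen.1 hc'
        have e2 := mem_cen.1 ((Subgroup.normal_of_index_eq_two h4).conj_mem _ hc' g⁻¹)
        calc _ = g * (g⁻¹ * c * g⁻¹⁻¹ * v) * g⁻¹ * v⁻¹ := by group
          _ = g * v * g⁻¹ * v⁻¹ * (v * c) * v⁻¹ := by rw [e2]; group
          _ = _ := by rw [← e1]; group)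
    have h6 := gt3_lt (le_sup_left : commutator D ≤ commutator D ⊔ zpowers v)
      (Subgroup.mem_sup_right (Subgroup.mem_zpowers v)) fun e => hv (dY e)
    have h7 := card_of_ab_two h4 (ab_of_index_two (Z := commutator D ⊔ zpowers v)
      (sup_le (fun w hw => mem_cen.2 (h5 v (mem_cen.2 rfl) w hw).symm)
        (Subgroup.zpowers_le.2 (mem_cen.2 rfl)))
      (fun p hp c hc' => mem_cen.1 (sup_le (fun w hw => mem_cen.2 (h5 c hc' w hw).symm)
        (Subgroup.zpowers_le.2 (mem_cen.2 (mem_cen.1 hc').symm)) hp)) (by rw [← cc]; omega)) hn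
    rw [← cc, h, hz] at h7
    omega
  have easy : ∀ n : ℕ, (∀ x ∈ Y, x ^ n = 1) → ∀ u : D, u ^ n ≠ 1 → Easy D := fun n h1 u hu => by
    have h2 := F2 u fun e => hu (h1 u e)
    have h3 : orderOf u ≠ 1 := fun e => hu (by rw [orderOf_eq_one_iff.1 e, one_pow])
    have h4 := orderOf_pos u
    refine ⟨u, by omega, by omega, fun v hv => Or.inl ((F2 v fun e => hu ?_).trans
      (i8 ▸ index_le_cc u))⟩
    rw [← orderOf_dvd_iff_pow_eq_one, ← hv, orderOf_dvd_iff_pow_eq_one]
    exact h1 v e
  by_contra hE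
  have h4 : ∀ g : D, g * g * (g * g) = 1 := fun g => by
    have e : ∀ g : D, g ^ 4 = g * g * (g * g) := fun g => by rw [← pow_two, ← pow_two, ← pow_mul]
    by_contra h1
    exact hE (easy 4 (fun x hx => (e x).trans (z2 _ (Y2 x hx))) g (e g ▸ h1))
  obtain ⟨y, hy, y2⟩ : ∃ y ∈ Y, y ^ 2 ≠ 1 := by
    by_contra h1
    push Not at h1
    have h2 : ∀ u : D, u⁻¹ = u := fun u => inv_eq_of_mul_eq_one_right
      ((pow_two u).symm.trans (by_contra fun e => hE (easy 2 h1 u e)))
    exact hn fun a b => by rw [← h2 (a * b), mul_inv_rev, h2, h2]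
  obtain ⟨w, hw, wz⟩ : ∃ w ∈ commutator D, w ∉ center D := by
    by_contra h1
    push Not at h1
    have := Subgroup.card_le_of_le (show commutator D ≤ center D from h1)
    omega
  obtain ⟨b, hb⟩ := not_forall.1 (mt Subgroup.mem_center_iff.2 wz)
  have c1 := two_mul_cc_le wz
  have c2 : (centralizer ({w} : Set D)).index = 2 := by
    have h1 := gb_index_le w ((hY w).1 (dY hw))
    have h2 := (centralizer ({w} : Set D)).index_mul_card
    rw [← cc] at h2
    rw [hz] at h1
    generalize (centralizer ({w} : Set D)).index = n at *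
    interval_cases n <;> omega
  have YC : Y ≤ centralizer {w} := fun x hx => mem_cen.2 (gt3_comm ((hY x).1 hx) hw).symm
  obtain ⟨a, ha, ab⟩ : ∃ a ∈ centralizer ({w} : Set D), a * b * a⁻¹ * b⁻¹ ∉ center D := by
    by_contra h1
    push Not at h1
    refine hb (mem_cen.1 (YC ((hY b).2 fun g => ?_)))
    rcases gb_cases c2 (fun e => hb (mem_cen.1 e)) g with e | ⟨a, ha, rfl⟩
    · exact h1 g e
    · convert h1 a ha using 1
      group
  have aY : a ∉ Y := fun e => ab (by
    have := inv_mem ((hY a).1 e b)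
    convert this using 1
    group)
  have aD := cd w hw wz a (mem_cen.1 ha)
  have bD : ∀ p ∈ commutator D, p ∉ center D → b * p ≠ p * b := fun p h1 h2 h3 =>
    hb (cd p h1 h2 b h3 w hw)
  have w0 := gb_comm a b
  obtain ⟨c, hc0⟩ : ∃ c, a * b * a⁻¹ * b⁻¹ = c := ⟨_, rfl⟩
  rw [hc0] at ab w0
  have sq : ∀ p ∈ commutator D, p ∉ center D → p * p = c * c := fun p h1 h2 => by
    have h3 := (hk _ h1 _ (inv_mem w0)).2 (by simp [h2, ab])
    calc _ = p * c⁻¹ * (c * (p * c⁻¹)) * c := by group
      _ = _ := by rw [zc _ h3 c, ← mul_assoc, z2 _ h3, one_mul]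
  by_cases c2 : c * c = 1
  · have h1 : b * b ∉ commutator D := fun e => bD _ e (fun e' => bD c w0 ab ?_) (mul_assoc ..).symm
    · have h2 := gt3_lt (le_sup_left : commutator D ≤ commutator D ⊔ zpowers (b * b))
        (Subgroup.mem_sup_right (Subgroup.mem_zpowers _)) h1
      have h3 := gt3_lt (sup_le dY (Subgroup.zpowers_le.2 (sY b))) hy fun e => y2 (by
        obtain ⟨p, hp, _, ⟨n, rfl⟩, rfl⟩ := Subgroup.mem_sup_of_normal_left.1 e
        have e1 : Commute p ((b * b) ^ n) := Commute.zpow_right (gt3_comm ((hY _).1 (sY b)) hp) n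
        have e2 : p * p = 1 := by
          by_cases e2 : p ∈ center D
          exacts [z2 p e2, (sq p hp e2).trans c2]
        rw [e1.mul_pow, pow_two, e2, one_mul, ← zpow_natCast, ← zpow_mul, mul_comm, zpow_mul,
          zpow_natCast, pow_two, h4, one_zpow])
      have h5 := gt3_lt YC ha aY
      rw [← cc] at h5
      omega
    · have e1 : a * b = c * b * a := by rw [← hc0]; group
      have e2 := zc _ e' a
      rw [← mul_assoc, e1, mul_assoc, e1, ← mul_assoc, ← mul_assoc, mul_left_inj, mul_left_inj] at e2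
      calc _ = c * c * b * c := by rw [c2, one_mul]
        _ = _ := by rw [mul_assoc c, mul_assoc c, e2]
  · have h1 : a * a ∉ commutator D := fun e => c2 ((sq _ e fun e' => c2 ?_).symm.trans (h4 a))
    · have h2 := gt3_lt (le_sup_left : commutator D ≤ commutator D ⊔ zpowers (a * a))
        (Subgroup.mem_sup_right (Subgroup.mem_zpowers _)) h1
      have h3 := gt3_lt (K := centralizer {a}) (sup_le (fun p hp => mem_cen.2 (aD p hp).symm)
        (Subgroup.zpowers_le.2 (mem_cen.2 (mul_assoc a a a)))) (mem_cen.2 rfl)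
        fun e => aY (sup_le dY (Subgroup.zpowers_le.2 (sY a)) e)
      have h5 := F2 a aY
      rw [← cc] at h3
      omega
    · have e1 : a * b = c * b * a := by rw [← hc0]; group
      have e2 := zc _ e' b
      rw [mul_assoc a, e1, ← mul_assoc a, ← mul_assoc a, aD c w0, mul_assoc c, e1,
        ← mul_assoc b] at e2
      have e3 := mul_right_cancel e2
      rw [← mul_assoc, ← mul_assoc, mul_assoc (c * c)] at e3
      exact (mul_eq_right.1 e3.symm)

end OL5
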