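import Mathlib
import Cfsg.Agent.Lib.OL5.GB

set_option autoImplicit false

namespace OL5

open H86 (Cen Nor)
open Subgroup (zpowers center centralizer)
open scoped commutatorElement

variable {D : Type*} [Group D] [Finite D]

omit [Finite D] in
theorem gt4_p4 (x : D) : x ^ 4 = x * x * (x * x) := by simp only [pow_succ, pow_zero, one_mul, mul_assoc]

theorem gt4_list {H : Subgroup D} (h : Nat.card H = 4) {t v : D} (ht : t ∈ H) (hv : v ∈ H)
    (t1 : t ≠ 1) (v1 : v ≠ 1) (vt : v ≠ t) (t2 : t * t = 1) :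
    ∀ u ∈ H, u = 1 ∨ u = t ∨ u = v ∨ u = v * t := by
  have htv1 : v * t ≠ 1 := fun h => vt (by rw [← mul_right_cancel_iff (a := t), h, t2])
  have htvt : v * t ≠ t := fun h => v1 (by simpa using h)
  have htvv : v * t ≠ v := fun h => t1 (by simpa using h)
  have hS : ({1, t, v, v * t} : Set D).ncard = 4 := by
    rw [Set.ncard_insert_of_notMem, Set.ncard_insert_of_notMem, Set.ncard_pair htvv.symm]
    · simp only [Set.mem_insert_iff, Set.mem_singleton_iff, not_or]
      exact ⟨vt.symm, htvt.symm⟩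
    · simp only [Set.mem_insert_iff, Set.mem_singleton_iff, not_or]
      exact ⟨t1.symm, v1.symm, htv1.symm⟩
  have hsub : ({1, t, v, v * t} : Set D) ⊆ (H : Set D) := by
    rintro u (rfl | rfl | rfl | rfl)
    exacts [H.one_mem, ht, hv, H.mul_mem hv ht]
  have hT4 : (H : Set D).ncard = 4 := by rw [← h]; rfl
  have heq := Set.eq_of_subset_of_ncard_le hsub (by omega)
  intro u hu
  have : u ∈ ({1, t, v, v * t} : Set D) := heq ▸ hu
  simpa using this

theorem gt4_third {H : Subgroup D} (h : Nat.card H = 4) (t : D) : ∃ v ∈ H, v ≠ 1 ∧ v ≠ t := by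
  by_contra hc
  push Not at hc
  have hsub : (H : Set D) ⊆ {1, t} := fun v hv => by
    by_cases v1 : v = 1
    · exact Or.inl v1
    · exact Or.inr (hc v hv v1)
  have h1 := Set.ncard_le_ncard hsub
  have h2 : ({1, t} : Set D).ncard ≤ 2 := (Set.ncard_insert_le _ _).trans (by simp)
  have h3 : (H : Set D).ncard = 4 := by rw [← h]; rfl
  omega

theorem gt4_exists (hc : Nat.card D = 32) (h : Nat.card (commutator D) = 4)
    (hz : Nat.card (center D) = 4) (hne : commutator D ≠ center D)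
    (hn : ¬ ∀ x y : D, x * y = y * x) : ∃ a : D, a * a ∉ center D ∧ ∃ A : Subgroup D,
      A.index = 2 ∧ ∀ x, x ∈ A ↔ ∃ i : ℤ, ∃ z ∈ center D, x = a ^ i * z := by
  obtain ⟨a, ha⟩ : ∃ a : D, a * a ∉ center D := by
    by_contra hs
    push Not at hs
    refine hne (Subgroup.eq_of_le_of_card_ge ?_ (by omega))
    rw [commutator_def, Subgroup.commutator_le]
    intro u _ v _
    have e : ⁅u, v⁆ = (u * u) * ((u⁻¹ * v) * (u⁻¹ * v)) * (v * v)⁻¹ := by
      rw [commutatorElement_def]; group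
    rw [e]
    exact mul_mem (mul_mem (hs u) (hs _)) (inv_mem (hs v))
  have hQ : Nat.card (D ⧸ center D) = 8 := by
    have := (center D).card_eq_card_quotient_mul_card_subgroup
    rw [hz] at this
    omega
  have ho : orderOf (a : D ⧸ center D) = 4 := by
    have h1 : orderOf (a : D ⧸ center D) ∣ 8 := hQ ▸ orderOf_dvd_natCard _
    have h2 : ¬ orderOf (a : D ⧸ center D) ∣ 2 := fun e => ha (by
      rw [orderOf_dvd_iff_pow_eq_one, sq, ← QuotientGroup.mk_mul, QuotientGroup.eq_one_iff] at e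
      exact e)
    have h3 : orderOf (a : D ⧸ center D) ≠ 8 := fun e => by
      have : IsCyclic (D ⧸ center D) := isCyclic_of_orderOf_eq_card _ (e.trans hQ.symm)
      exact hn ((QuotientGroup.mk' (center D)).isMulCommutative_of_isCyclic_of_ker_le_center
        (QuotientGroup.ker_mk' _).le).is_comm.comm
    have h4 := Nat.le_of_dvd (by norm_num) h1
    generalize orderOf (a : D ⧸ center D) = m at *
    interval_cases m <;> omega
  refine ⟨a, ha, (zpowers (a : D ⧸ center D)).comap (QuotientGroup.mk' _), ?_, fun x => ?_⟩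
  · rw [Subgroup.index_comap_of_surjective _ (QuotientGroup.mk'_surjective _)]
    have := (zpowers (a : D ⧸ center D)).index_mul_card
    rw [Nat.card_zpowers, ho, hQ] at this
    omega
  · rw [Subgroup.mem_comap, Subgroup.mem_zpowers_iff]
    refine exists_congr fun i => ?_
    rw [QuotientGroup.mk'_apply, ← QuotientGroup.mk_zpow, QuotientGroup.eq]
    exact ⟨fun e => ⟨_, e, by group⟩, by rintro ⟨z, hz, rfl⟩; simpa using hz⟩

theorem gt_four (hc : Nat.card D = 32) (h : Nat.card (commutator D) = 4)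
    (hz : Nat.card (center D) = 4) (hne : commutator D ≠ center D) :
    Easy D ∨ ∃ (k : ℕ) (a b t : D), AVc k a b t := by
  have hn : ¬ ∀ x y : D, x * y = y * x := fun e => by
    have : commutator D = ⊥ := by
      rw [eq_bot_iff, commutator_def, Subgroup.commutator_le]
      intro u _ v _
      rw [Subgroup.mem_bot, commutatorElement_eq_one_iff_mul_comm, e]
    rw [this, Subgroup.card_bot] at h
    omega
  have hix : (commutator D).index = 8 := by
    have := (commutator D).index_mul_card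
    rw [h] at this
    omega
  obtain ⟨a, ha, A, hi, hA⟩ := gt4_exists hc h hz hne hn
  have zc : ∀ {z : D}, z ∈ center D → ∀ g, Commute g z := fun hz g =>
    Subgroup.mem_center_iff.1 hz g
  have z4 : ∀ z ∈ center D, z ^ 4 = 1 := fun z hz' => by
    have := pow_card_eq_one' (x := (⟨z, hz'⟩ : center D))
    rw [hz] at this
    exact congrArg Subtype.val this
  have hab : ∀ x ∈ A, ∀ y ∈ A, Commute x y := fun x hx y hy => by
    obtain ⟨i, z, hz, rfl⟩ := (hA x).1 hx
    obtain ⟨j, z', hz', rfl⟩ := (hA y).1 hy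
    exact Commute.mul_right (Commute.mul_left (Commute.zpow_zpow_self a i j) (zc hz _).symm)
      (zc hz' _)
  have aA : a ∈ A := (hA a).2 ⟨1, 1, one_mem _, by simp⟩
  have ZA : ∀ {z : D}, z ∈ center D → z ∈ A := fun {z} hz => (hA z).2 ⟨0, z, hz, by simp⟩
  have hAn : A.Normal := Subgroup.normal_of_index_eq_two hi
  obtain ⟨t, ht⟩ : ∃ t, t ∉ A := by
    by_contra e
    push Not at e
    rw [(Subgroup.eq_top_iff' A).2 e, Subgroup.index_top] at hi
    omega
  have hcc : ∀ {u : D}, u ∉ A → cc u = 8 := fun hu => by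
    rw [cc_of_not_mem hi hab hn hu, hz]
  have hZ : ∀ {z : D}, z ∈ A → t * z = z * t → z ∈ center D := fun h1 h2 =>
    (mem_center_of_ab_two hi hab hn ht).2 ⟨h1, h2⟩
  have sqZ : ∀ {u : D}, u ∉ A → u * u ∈ center D := fun {u} hu =>
    (mem_center_of_ab_two hi hab hn hu).2 ⟨Subgroup.mul_self_mem_of_index_two hi u, by group⟩
  have hat : a * t ∉ A := fun e => ht ((Subgroup.mul_mem_cancel_left _ aA).1 e)
  obtain ⟨s, hs⟩ : ∃ s, s = t * a * t⁻¹ := ⟨_, rfl⟩
  have sA : s ∈ A := hs ▸ hAn.conj_mem a aA t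
  have hts : t * s * t⁻¹ = a := by
    have := zc (sqZ ht) a
    calc t * s * t⁻¹ = t * t * a * (t * t)⁻¹ := by rw [hs]; group
      _ = a := by rw [← this.eq, mul_inv_cancel_right]
  have cs : Commute a s := hab a aA s sA
  obtain ⟨w, hw⟩ : ∃ w, w = s * a⁻¹ := ⟨_, rfl⟩
  have wA : w ∈ A := hw ▸ mul_mem sA (inv_mem aA)
  have cw : Commute a w := hab a aA w wA
  have hD : ∀ {x : D}, x ∈ commutator D ↔ x ∈ zpowers w := fun {x} => by
    rw [mem_comm_of_ab_two hi hab ht, Subgroup.mem_zpowers_iff]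
    have e : ∀ (i : ℤ) (z : D), z ∈ center D →
        t * (a ^ i * z) * t⁻¹ * (a ^ i * z)⁻¹ = w ^ i := fun i z hz => by
      rw [← conj_mul, (zc hz t).eq, mul_inv_cancel_right, ← conj_zpow, ← hs, hw,
        cs.symm.inv_right.mul_zpow]
      group
    constructor
    · rintro ⟨y, hy, rfl⟩
      obtain ⟨i, z, hz, rfl⟩ := (hA y).1 hy
      exact ⟨i, (e i z hz).symm⟩
    · rintro ⟨i, rfl⟩
      exact ⟨a ^ i * 1, mul_mem (zpow_mem aA i) (one_mem _), (e i 1 (one_mem _)).symm⟩
  have ow : orderOf w = 4 := by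
    rw [← Nat.card_zpowers, ← h, Subgroup.ext fun x => hD (x := x)]
  have w4 : w ^ 4 = 1 := ow ▸ pow_orderOf_eq_one w
  have wZ : w ∉ center D := fun e => hne (Subgroup.eq_of_le_of_card_ge
    (fun x hx => Subgroup.zpowers_le.2 e (hD.1 hx)) (by omega))
  have htw : t * w * t⁻¹ = w⁻¹ := by
    rw [hw, ← conj_mul, hts, conj_inv.symm, ← hs, mul_inv_rev, inv_inv]
  obtain ⟨ζ, hζ⟩ : ∃ ζ, ζ = w * w := ⟨_, rfl⟩
  have ζ2 : ζ * ζ = 1 := by rw [hζ, ← w4, gt4_p4]
  have ζ1 : ζ ≠ 1 := fun e => by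
    have := orderOf_dvd_of_pow_eq_one (show w ^ 2 = 1 by rw [sq, ← hζ, e])
    rw [ow] at this
    omega
  have ζZ : ζ ∈ center D := hZ (hζ ▸ mul_mem wA wA) (by
    rw [← mul_inv_eq_iff_eq_mul]
    conv_rhs => rw [eq_inv_of_mul_eq_one_right ζ2]
    rw [hζ, ← conj_mul, htw, mul_inv_rev])
  have ζD : ζ ∈ commutator D := hD.2 (hζ ▸ mul_mem (Subgroup.mem_zpowers w) (Subgroup.mem_zpowers w))
  have DZ : ∀ x ∈ commutator D, x ∈ center D → x = 1 ∨ x = ζ := fun x hx hx' => by
    have wD : w ∈ commutator D := hD.2 (Subgroup.mem_zpowers w)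
    rcases gt4_list h ζD wD ζ1 (fun e => wZ (e ▸ one_mem _)) (fun e => wZ (e ▸ ζZ)) ζ2 x hx with
      e | e | e | e
    · exact Or.inl e
    · exact Or.inr e
    · exact absurd (e ▸ hx') wZ
    · exact absurd ((Subgroup.mul_mem_cancel_right _ ζZ).1 (e ▸ hx')) wZ
  obtain ⟨n, hnn⟩ : ∃ n, n = a * s := ⟨_, rfl⟩
  have nZ : n ∈ center D := hZ (hnn ▸ mul_mem aA sA) (by
    rw [← mul_inv_eq_iff_eq_mul, hnn, ← conj_mul, hts, ← hs, cs.eq])
  have hsw : s = w * a := by rw [hw, inv_mul_cancel_right]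
  have n2 : n * n = a ^ 4 * ζ := by
    rw [hnn, hsw, hζ, ← cw.eq, ← mul_assoc a a, mul_assoc (a * a) w, ← mul_assoc w,
      ← (cw.mul_left cw).eq, gt4_p4]
    simp only [mul_assoc]
  have at2 : a * t * (a * t) = n * (t * t) := by rw [hnn, hs]; group
  by_cases a4 : a ^ 4 = 1
  · left
    have A4 : ∀ x ∈ A, x ^ 4 = 1 := fun x hx => by
      obtain ⟨i, z, hz, rfl⟩ := (hA x).1 hx
      rw [(zc hz _).mul_pow, z4 z hz, ← zpow_natCast, ← zpow_mul, mul_comm i, zpow_mul,
        zpow_natCast, a4, one_zpow, one_mul]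
    obtain ⟨u, hu, u4⟩ : ∃ u, u ∉ A ∧ u ^ 4 ≠ 1 := by
      by_cases t4 : t ^ 4 = 1
      · refine ⟨a * t, hat, fun e => ζ1 ?_⟩
        have e1 : (a * t) ^ 4 = n * n * t ^ 4 := by
          rw [gt4_p4, at2, ← sq, (zc nZ _).symm.mul_pow, sq, sq, gt4_p4]
        rw [e1, t4, n2, a4, one_mul, mul_one] at e
        exact e
      · exact ⟨t, ht, t4⟩
    have ou : 2 ≤ orderOf u := by
      have h1 : orderOf u ≠ 1 := fun e => u4 (by rw [orderOf_eq_one_iff.1 e, one_pow])
      have h2 := orderOf_pos u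
      omega
    refine ⟨u, by rw [hcc hu]; omega, by rw [hcc hu, hix], fun v hv => Or.inl ?_⟩
    rw [hcc hu, hcc fun e => u4 (orderOf_dvd_iff_pow_eq_one.1
      (hv ▸ orderOf_dvd_of_pow_eq_one (A4 v e)))]
  obtain ⟨y, yZ, y1, yζ⟩ := gt4_third hz ζ
  have hy := gt4_list hz ζZ yZ ζ1 y1 yζ ζ2
  have yy : y * y = 1 ∨ y * y = ζ := by
    rcases hy _ (mul_mem yZ yZ) with e | e | e | e
    · exact Or.inl e
    · exact Or.inr e
    · exact absurd (by simpa using e) y1
    · exact absurd (mul_left_cancel e) yζ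
  have yζ2 : y * ζ * (y * ζ) = y * y := by
    rw [mul_assoc, ← mul_assoc ζ, ← (zc ζZ y).eq, mul_assoc y ζ, ζ2, mul_one]
  have nn : n * n = 1 := by
    have : n * n = 1 ∨ n * n = ζ := by
      rcases hy n nZ with e | e | e | e <;> rw [e]
      · exact Or.inl (mul_one _)
      · exact Or.inl ζ2
      · exact yy
      · rw [yζ2]; exact yy
    refine this.resolve_right fun e => a4 ?_
    rw [n2] at e
    simpa using e
  have aζ : a ^ 4 = ζ := by
    rw [nn, ← ζ2] at n2
    exact (mul_right_cancel n2).symm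
  have oa : orderOf a = 2 ^ (2 + 1) := orderOf_eq_prime_pow (by simpa using a4) (by
    rw [show 2 ^ (2 + 1) = 4 + 4 by norm_num, pow_add, aζ, ζ2])
  by_cases hnc : n = 1 ∨ n = ζ
  · right
    obtain ⟨b, b2, j, hb⟩ : ∃ b : D, b ^ 2 = 1 ∧ ∃ j : ℤ, b = a ^ j * y := by
      rcases yy with e | e
      · exact ⟨y, by rw [sq, e], 0, by simp⟩
      · refine ⟨a ^ (2 : ℤ) * y, ?_, 2, rfl⟩
        rw [(zc yZ _).mul_pow, sq y, e, ← ζ2, ← aζ]
        group
    have hCA : ∀ x, x * a = a * x ↔ x ∈ A := fun x => ⟨fun e => by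
      by_contra hx
      have := (mem_center_of_ab_two hi hab hn hx).2 ⟨aA, e⟩
      exact ha (mul_mem this this), fun hx => hab x hx a aA⟩
    have hca : cc a = 16 := by
      have e : centralizer ({a} : Set D) = A := Subgroup.ext fun x => mem_cen.trans (hCA x)
      have := A.index_mul_card
      rw [hi] at this
      rw [cc, e]
      omega
    refine ⟨1, a, b, t, oa, ?_, b2, fun x => (hCA x).trans ⟨fun hx => ?_, ?_⟩, by omega, by omega,
      fun z hz => z4 z hz⟩
    · rw [← hs, eq_inv_mul_of_mul_eq hnn.symm]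
      rcases hnc with e | e
      · exact Or.inl (by rw [e, mul_one])
      · exact Or.inr ⟨le_rfl, by rw [e, ← aζ]; norm_num⟩
    · obtain ⟨i, z, hz, rfl⟩ := (hA x).1 hx
      rcases hy z hz with e | e | e | e
      · exact ⟨i, Or.inl (by rw [e, mul_one])⟩
      · exact ⟨i + 4, Or.inl (by rw [e, ← aζ]; group)⟩
      · exact ⟨i - j, Or.inr (by rw [e, hb]; group)⟩
      · exact ⟨i + 4 - j, Or.inr (by rw [e, hb, (zc ζZ y).eq, ← aζ]; group)⟩
    · rintro ⟨i, rfl | rfl⟩
      · exact zpow_mem aA i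
      · exact mul_mem (zpow_mem aA i) (hb ▸ mul_mem (zpow_mem aA j) (ZA yZ))
  · left
    push Not at hnc
    have hl := gt4_list hz ζZ nZ ζ1 hnc.1 hnc.2 ζ2
    have Z2 : ∀ z ∈ center D, z * z = 1 := fun z hz => by
      rcases hl z hz with e | e | e | e <;> rw [e]
      · exact mul_one _
      · exact ζ2
      · exact nn
      · rw [mul_assoc, ← mul_assoc ζ, ← (zc ζZ n).eq, mul_assoc n ζ, ζ2, mul_one, nn]
    obtain ⟨u, hu, u1, u2⟩ : ∃ u, u ∉ A ∧ u * u ≠ 1 ∧ u * u ≠ ζ := by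
      by_cases t2 : t * t = 1 ∨ t * t = ζ
      · refine ⟨a * t, hat, ?_⟩
        rw [at2]
        rcases t2 with e | e <;> rw [e]
        · rw [mul_one]; exact hnc
        · exact ⟨fun e => hnc.2 (by rw [← mul_right_cancel_iff (a := ζ), e, ζ2]),
            fun e => hnc.1 (by simpa using e)⟩
      · exact ⟨t, ht, not_or.1 t2⟩
    have ou : orderOf u = 2 ^ (1 + 1) := orderOf_eq_prime_pow (by rwa [pow_one, sq]) (by
      rw [← Z2 _ (sqZ hu), ← gt4_p4]; norm_num)
    refine ⟨u, by rw [hcc hu, ou]; norm_num, by rw [hcc hu, hix], fun v hv => ?_⟩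
    by_cases vA : v ∈ A
    · right
      obtain ⟨i, z, hz, rfl⟩ := (hA v).1 vA
      have e2 : (a ^ i * z) ^ 2 = a ^ (2 * i) := by
        rw [(zc hz _).mul_pow, sq z, Z2 z hz]; group
      have e4 : a ^ (4 * i) = 1 := by
        have := pow_orderOf_eq_one (a ^ i * z)
        rw [hv, ou, show 2 ^ (1 + 1) = 2 * 2 by norm_num, pow_mul, e2] at this
        rw [← this]; group
      have e8 := orderOf_dvd_iff_zpow_eq_one.2 e4
      rw [oa] at e8
      obtain ⟨j, rfl⟩ : ∃ j, i = 2 * j := ⟨i / 2, by push_cast at e8; omega⟩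
      have e5 : (a ^ (2 * j) * z) ^ 2 = ζ ^ j := by rw [e2, ← aζ]; group
      rw [e5, sq]
      exact ⟨sqZ hu, zpow_mem ζZ j, fun e => (DZ _ e (sqZ hu)).elim u1 u2, zpow_mem ζD j⟩
    · left
      rw [hcc hu, hcc vA]

end OL5
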