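import Mathlib
import Cfsg.Agent.Lib.K44.Ext

set_option autoImplicit false
set_option linter.unusedSectionVars false
set_option linter.style.haveILetI false
attribute [local irreducible] H33.instFieldF

namespace OL5

open Cfsg H84 H85 K44
open H33 (F eB)
open H86 (Cen Nor cj cs eS St Mor)
open Subgroup (zpowers center centralizer)
open scoped SubFin

universe u

variable {G : Type u} [Group G] [Fintype G] {p : ℕ} [Fact p.Prime] {M : Ideal AlgInt} [M.IsMaximal]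
  {B : Set (IrrCharacter G)} {P : Subgroup G} {e : MonoidAlgebra (F M) G} {u : G}

theorem exists_fc (h : MP p M B P e) (hu : u ∈ P) : ∃ v, Fus p P e u v ∧ FC p P e v := by
  obtain ⟨v, hv, hm⟩ := Set.exists_max_image {v | Fus p P e u v}
    (fun v => Nat.card (P ⊓ Cen (zpowers v) : Subgroup G)) (Set.toFinite _) ⟨u, h.fus_refl hu⟩
  exact ⟨v, hv, fun w hw => hm w (h.fus_trans hv hw)⟩

theorem le_Nor_of_cl (hcl : ∀ x ∈ P, ∀ y ∈ P, x * y * x⁻¹ * y⁻¹ ∈ Cen P) {Q : Subgroup G}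
    (hQ : Q ≤ P) (hZ : P ⊓ Cen P ≤ Q) : P ≤ Nor Q := fun x hx => H86.mem_Nor_of_cs_le (by
  rintro _ ⟨y, hy, rfl⟩
  have h1 := hQ hy
  have h2 := mul_mem (hZ ⟨P.mul_mem (P.mul_mem (P.mul_mem hx h1) (P.inv_mem hx)) (P.inv_mem h1),
    hcl x hx y h1⟩) hy
  rwa [inv_mul_cancel_right] at h2)

theorem ab_of_cen (hc : ∀ x ∈ P, x * u = u * x → x ∈ Cen P ∨ x * u⁻¹ ∈ Cen P) (hu : u ∈ P) :
    P ⊓ Cen (zpowers u) ≤ Cen (P ⊓ Cen (zpowers u) : Subgroup G) := fun x hx => by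
  have h1 : u ∈ Cen (P ⊓ Cen (zpowers u) : Subgroup G) :=
    H86.mem_Cen.2 fun y hy => (H86.mem_Cen_zpowers.1 hy.2).symm
  rcases hc x hx.1 (H86.mem_Cen_zpowers.1 hx.2).symm with h2 | h2
  · exact H86.Cen_anti inf_le_left h2
  · have := mul_mem (H86.Cen_anti (inf_le_left (b := Cen (zpowers u))) h2) h1
    rwa [inv_mul_cancel_right] at this

theorem pull_back (h : MP p M B P e) (hcl : ∀ x ∈ P, ∀ y ∈ P, x * y * x⁻¹ * y⁻¹ ∈ Cen P)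
    (hu : u ∈ P) (hc : ∀ x ∈ P, x * u = u * x → x ∈ Cen P ∨ x * u⁻¹ ∈ Cen P)
    (hf : ¬ FC p P e u) : ∃ t ∈ SQ p M P e (P ⊓ Cen (zpowers u)), t * u * t⁻¹ ∈ Cen P := by
  obtain ⟨v, huv, hv⟩ := exists_fc h hu
  obtain ⟨g, hg, rfl⟩ := extC h huv hv
  obtain ⟨Q, hQ⟩ : ∃ Q, Q = P ⊓ Cen (zpowers u) := ⟨_, rfl⟩
  have hab : Q ≤ Cen Q := hQ ▸ ab_of_cen hc hu
  have huQ : u ∈ Q := hQ ▸ ⟨hu, zpowers_le_Cen u (Subgroup.mem_zpowers u)⟩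
  have hQP : Q ≤ P := hQ ▸ inf_le_left
  have hZQ : P ⊓ Cen P ≤ Q := hQ ▸ inf_le_inf_left _ (H86.Cen_anti (Subgroup.zpowers_le.2 hu))
  have hCQ : P ⊓ Cen Q ≤ Q := hQ ▸ inf_le_inf_left _ (H86.Cen_anti (Subgroup.zpowers_le.2 (hQ ▸ huQ)))
  rw [← hQ] at hg ⊢
  have hlt : Nat.card Q < Nat.card (P ⊓ Cen (zpowers (g * u * g⁻¹)) : Subgroup G) := by
    by_contra h1
    exact hf fun w hw => (hv w (h.fus_trans huv.symm hw)).trans (hQ ▸ not_lt.1 h1)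
  have h1 : cs g⁻¹ (cs g Q) = Q := H86.cs_inv_cs g Q
  obtain ⟨t, ht, h2⟩ := extN h hg.inv (by rw [h1]; exact fn_of_normal (le_Nor_of_cl hcl hQP hZQ))
  rw [h1] at ht
  have h3 : cs (t * g⁻¹) (cs g Q) = Q := by
    rw [H86.cs_mul, h1]; exact H86.mem_Nor_iff_cs.1 (SQ_le_Nor ht)
  have h4 : P ⊓ Cen P ≤ cs g Q := fun z hz => by
    have h5 : z ∈ Cen (cs g Q) := H86.Cen_anti hg.cs_le hz.2
    have h6 : t * g⁻¹ * z * (t * g⁻¹)⁻¹ ∈ P ⊓ Cen Q :=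
      ⟨h2.cs_le (H86.conj_mem_cs.2 ⟨hz.1, H86.Cen_le_Nor _ h5⟩), by
        rw [← h3, ← H86.cs_Cen]; exact H86.conj_mem_cs.2 h5⟩
    have h7 := hCQ h6
    rw [← h3] at h7
    exact H86.conj_mem_cs.1 h7
  rw [inf_eq_left.2 (le_Nor_of_cl hcl hg.cs_le h4)] at h2
  have h5 : cs (t * g⁻¹) P = P :=
    Subgroup.eq_of_le_of_card_ge h2.cs_le (by rw [H86.card_cs])
  have h6 : Nat.card (P ⊓ Cen (zpowers (t * u * t⁻¹)) : Subgroup G) =
      Nat.card (P ⊓ Cen (zpowers (g * u * g⁻¹)) : Subgroup G) := by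
    rw [← H86.card_cs (t * g⁻¹) (P ⊓ Cen (zpowers (g * u * g⁻¹))), H86.cs_inf, h5, H86.cs_Cen,
      H86.cs_zpowers]
    congr 5
    group
  have h7 : t * u * t⁻¹ ∈ Q := H86.conj_mem_of_Nor (SQ_le_Nor ht) huQ
  refine ⟨t, ht, (hc _ (hQP h7) (H86.mem_Cen.1 (hab huQ) _ h7)).resolve_right fun h8 => ?_⟩
  refine hlt.not_ge (h6 ▸ Subgroup.card_le_of_le fun x hx => ?_)
  rw [hQ]
  refine ⟨hx.1, H86.mem_Cen_zpowers.2 ?_⟩
  have h9 := H86.mem_Cen.1 h8 x hx.1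
  have h10 := H86.mem_Cen_zpowers.1 hx.2
  generalize t * u * t⁻¹ = y at h9 h10
  calc u * x = y * (y⁻¹ * (u * x)) := by group
    _ = x * u := by
      have : x * y * u⁻¹ = x * y * (x⁻¹ * u⁻¹ * x) := by
        rw [mul_assoc x y, h9, ← h10]; group
      have h11 := mul_left_cancel this
      calc y * (y⁻¹ * (u * x)) = x * (x⁻¹ * u⁻¹ * x)⁻¹ := by group
        _ = x * u := by rw [← h11, inv_inv]

end OL5
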