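import Mathlib
import Cfsg.Agent.Lib.K44.Ext
import Cfsg.Agent.Lib.H85.FrobBlk
import Cfsg.Agent.Lib.Block.QuotRank
import Cfsg.Agent.S4644

set_option autoImplicit false
set_option linter.unusedSectionVars false
set_option linter.style.haveILetI false
attribute [local irreducible] H33.instFieldF

namespace OL5

open Cfsg H84 H85 K44
open H33 (F eB)
open H86 (Cen Nor cj cs eS St Mor)
open Subgroup (zpowers center centralizer)
open scoped SubFin

universe u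

variable {G : Type u} [Group G] [Fintype G] {p : ℕ} [Fact p.Prime] {M : Ideal AlgInt} [M.IsMaximal]
  {B : Set (IrrCharacter G)} {P : Subgroup G} {e : MonoidAlgebra (F M) G} {u : G} {q : ℕ}

theorem q1_exists_mp (h : MP p M B P e) {Z : Subgroup G} [Z.Normal] [Fintype (G ⧸ Z)] (hZ : Z ≤ P)
    (hc : Z ≤ center G) :
    ∃ e', MP p M (H86.quotSet Z B) (P.map (QuotientGroup.mk' Z)) e' ∧
      ∀ t' ∈ St ⊤ (P.map (QuotientGroup.mk' Z)) e', ∃ t ∈ St ⊤ P e,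
        ∀ x ∈ P.map (QuotientGroup.mk' Z), t' * x * t'⁻¹ =
          QuotientGroup.mk' Z t * x * (QuotientGroup.mk' Z t)⁻¹ := by
  haveI := H33.charP h.hM; haveI := H86.good h.hM G; haveI := H86.good h.hM (G ⧸ Z)
  set φ := QuotientGroup.mk' Z with hφ
  have hk : φ.ker = Z := QuotientGroup.ker_mk' Z
  have hZp : IsPGroup p Z := h.pgrp.to_le hZ
  have hq : H86.PQuot p (Cen Z) ⊤ := H86.pQuot_of_le_center hc
  have hZp' : IsPGroup p φ.ker := by rw [hk]; exact hZp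
  have hq' : H86.PQuot p (Cen φ.ker) ⊤ := by rw [hk]; exact hq
  have hZ' : φ.ker ≤ P := by rw [hk]; exact hZ
  have hb := H86.isBlk_eB h.hB
  have he := h.max.toPairOf
  obtain ⟨h1, h2⟩ := he.quot (φ := φ) hb hZp' hq' hZ'
  set T := ((⊤ : Subgroup G).map φ ⊓ Cen (P.map φ)).comap φ with hT
  have hD := (h.max.isDef hb).quot (φ := φ) hZp' le_top (H86.rs_eB h.hM h.hB hq)
  have hm := h2.isMaxPair hD
  rw [H86.top_map_mk, ← H86.eB_quotSet h.hM h.hB hZp hq] at hm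
  refine ⟨_, ⟨h.hM, H86.isPBlock_quotSet h.hM h.hB hZp hq, hm⟩, fun t' ht' => ?_⟩
  obtain ⟨x, rfl⟩ : ∃ x, φ x = t' := QuotientGroup.mk'_surjective Z t'
  obtain ⟨-, hxN, hxe⟩ := H86.mem_St.1 ht'
  rw [← H86.mem_Nor_iff_cs] at hxN
  have hP : (P.map φ).comap φ = P := Subgroup.comap_map_eq_self hZ'
  have hTN : T ≤ ⊤ ⊓ Nor P := H86.comap_le_inf_Nor le_top hZ'
  have hTH : H86.PQuot p (Cen φ.ker) T := fun x _ => hq' x trivial
  have hN : T ≤ Nor (⊤ ⊓ Cen P) := hTN.trans (H86.inf_Nor_le_Nor_inf_Cen ⊤ _)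
  have hxQ : x ∈ Nor P := hP ▸ H86.mem_Nor_comap hxN
  have hxT : x ∈ Nor T :=
    H86.mem_Nor_comap (H86.inf_Nor_le_Nor_inf_Cen _ _ ⟨⟨x, trivial, rfl⟩, hxN⟩)
  have hxC : x ∈ Nor (⊤ ⊓ Cen P) := H86.inf_Nor_le_Nor_inf_Cen _ _ ⟨trivial, hxQ⟩
  have h3 : cj x (H86.orbSum T (⊤ ⊓ Cen P) e) = H86.orbSum T (⊤ ⊓ Cen P) e :=
    (h1.cj_of_mem_Nor hxT).quot_inj h1 hZp' hTH (by rw [← H86.cj_emb, hxe])
  obtain ⟨c, hc', hce⟩ := H86.exists_cj_of_orbSum_mul_ne_zero hN he.blk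
    (he.blk.cj_of_mem_Nor hxC) (by
      rw [← h3, ← map_mul, H86.orbSum_mul_self hN he.blk]
      exact (he.blk.cj_of_mem_Nor hxC).ne)
  refine ⟨c⁻¹ * x, ⟨mul_mem (inv_mem (hTN hc')) ⟨trivial, hxQ⟩, by
    rw [H86.cj_mul, hce, H86.cj_inv_cj]⟩, fun y hy => ?_⟩
  have h4 := H86.mem_Cen.1 hc'.2 _ (H86.conj_mem_of_Nor hxN hy)
  rw [map_mul, map_inv]
  calc φ x * y * (φ x)⁻¹ = (φ c)⁻¹ * (φ c * (φ x * y * (φ x)⁻¹)) := by group
    _ = _ := by rw [← h4]; group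

theorem q1_gen (hq : q.Prime) (hd : Nat.card (inq P e) ∣ q) :
    ∃ g ∈ St ⊤ P e, g ^ q ∈ Cen P ∧ ∀ t ∈ St ⊤ P e, ∃ i : ℤ, ∀ x ∈ P,
      t * x * t⁻¹ = g ^ i * x * (g ^ i)⁻¹ := by
  haveI : IsCyclic (inq P e) := by
    rcases (Nat.dvd_prime hq).1 hd with h1 | h1
    · haveI := (Nat.card_eq_one_iff_unique.1 h1).1
      infer_instance
    · haveI := Fact.mk hq
      exact isCyclic_of_prime_card h1
  obtain ⟨⟨γ, hγ⟩, h1⟩ := IsCyclic.exists_generator (α := inq P e)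
  have h2 : γ ^ q = 1 := congrArg Subtype.val
    (orderOf_dvd_iff_pow_eq_one.1 ((orderOf_dvd_natCard (⟨γ, hγ⟩ : inq P e)).trans hd))
  obtain ⟨g, hg, rfl⟩ := hγ
  refine ⟨g, hg, ?_, fun t ht => ?_⟩
  · rw [← map_pow, ← MonoidHom.mem_ker, Subgroup.normalizerMonoidHom_ker] at h2
    exact h2
  · obtain ⟨α, hα, h3⟩ := exists_mem_inq ht
    obtain ⟨i, hi⟩ := h1 ⟨α, hα⟩
    refine ⟨i, fun x hx => ?_⟩
    have h4 : P.normalizerMonoidHom (g ^ i) = α := by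
      rw [map_zpow]; exact congrArg Subtype.val hi
    rw [← h3 ⟨x, hx⟩, ← h4]
    rfl

theorem q1_dvd {g : G} (hg : g ∈ Nor P) (hq : g ^ q ∈ Cen P)
    (h : ∀ t ∈ St ⊤ P e, ∃ i : ℤ, ∀ x ∈ P, t * x * t⁻¹ = g ^ i * x * (g ^ i)⁻¹) :
    Nat.card (inq P e) ∣ q := by
  have h1 : inq P e ≤ zpowers (P.normalizerMonoidHom ⟨g, hg⟩) := fun α hα => by
    obtain ⟨t, ht, h2⟩ := mem_inq.1 hα
    obtain ⟨i, hi⟩ := h t ht
    refine ⟨i, MulEquiv.ext fun x => Subtype.ext ?_⟩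
    rw [h2, hi x x.2]
    simp only [← map_zpow]
    rfl
  refine (Subgroup.card_dvd_of_le h1).trans ?_
  rw [Nat.card_zpowers, orderOf_dvd_iff_pow_eq_one, ← map_pow, ← MonoidHom.mem_ker,
    Subgroup.normalizerMonoidHom_ker]
  exact hq

theorem q1_lat (hM : IsPModular p M) (hB : IsPBlock M B) {Z : Subgroup G} [Z.Normal]
    [Fintype (G ⧸ Z)] (hZ : IsPGroup p Z) (hc : H86.PQuot p (Cen Z) ⊤) {f : G → ℂ}
    (hf : f ∈ lat p B) :
    ∃ f' ∈ lat p (H86.quotSet Z B), qf p (H86.quotSet Z B) f' f' = qf p B f f := by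
  have key : ∃ f' ∈ lat p (H86.quotSet Z B), rinf p Z f' = f := by
    refine H85.lat_induction (P := fun f => ∃ f' ∈ lat p (H86.quotSet Z B), rinf p Z f' = f)
      ⟨0, zero_mem _, map_zero _⟩ ?_ ?_ ?_ hf
    · intro χ hχ
      obtain ⟨n, hn⟩ := exists_reg_eq_sum_infl hM hB hZ hc hχ
      refine ⟨_, H85.mem_lat_iff.2 ⟨n, rfl⟩, ?_⟩
      rw [hn, map_sum]
      refine Finset.sum_congr rfl fun ψ _ => ?_
      rw [map_smul, rinf_reg, rinf_irr]
    · rintro _ _ _ _ ⟨f, hf, rfl⟩ ⟨f', hf', rfl⟩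
      exact ⟨f + f', add_mem hf hf', map_add _ _ _⟩
    · rintro _ _ ⟨f, hf, rfl⟩
      exact ⟨-f, neg_mem hf, map_neg _ _⟩
  obtain ⟨f', hf', rfl⟩ := key
  refine ⟨f', hf', ?_⟩
  have e1 := card_mul_inner_rinf_rinf hZ hc f' f'
  rw [reg_eq_self_of_mem (H85.mem_regSpan_of_lat hf')] at e1
  have e2 : ((p : ℂ)) ^ blockDefect p B =
      Nat.card Z * (p : ℂ) ^ blockDefect p (H86.quotSet Z B) := by
    exact_mod_cast pow_defect_quotSet hM hB hZ hc
  rw [H85.qf_apply, H85.qf_apply, e2, mul_comm (Nat.card Z : ℂ), mul_assoc, e1]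

theorem q1_card_inq {K A : Subgroup G} (hAK : A ≤ K) (e' : MonoidAlgebra (F M) K) :
    Nat.card (inq (A.subgroupOf K) e') =
      (Cen A).relIndex (St ⊤ A (H86.emb K.subtype e') ⊓ K) := by
  have h1 : Cen (A.subgroupOf K) = (Cen A).subgroupOf K := by
    ext x
    rw [Subgroup.mem_subgroupOf, ← H86.mem_Cen_map K.subtype_injective,
      Subgroup.map_subgroupOf_eq_of_le hAK]
    rfl
  rw [card_inq, St_subgroupOf hAK, h1, ← H86.St_inf, top_inf_eq]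
  exact Subgroup.relIndex_subgroupOf fun x hx => (H86.mem_St.1 hx).1

theorem q1_central (h : MP p M B P e) (hab : P ≤ Cen P) (hu : u ∈ P) (hc : u ∈ center G)
    (hq : q.Prime) (hd : Nat.card (inq P e) ∣ q) :
    ∃ (K : Type u) (_ : Group K) (_ : Fintype K) (c : Set (IrrCharacter K)) (Q : Subgroup K)
      (e' : MonoidAlgebra (F M) K), MP p M c Q e' ∧ Q ≤ Cen Q ∧
      Nat.card Q * orderOf u = Nat.card P ∧
      (∀ n : ℕ, (∀ x ∈ P, x ^ n = 1) → ∀ y ∈ Q, y ^ n = 1) ∧ Nat.card (inq Q e') ∣ q ∧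
      blockRank p c = blockRank p B ∧ ∀ f ∈ lat p B, ∃ f' ∈ lat p c, qf p c f' f' = qf p B f f := by
  have hZc : zpowers u ≤ center G := Subgroup.zpowers_le.2 hc
  have hZ : zpowers u ≤ P := Subgroup.zpowers_le.2 hu
  haveI : (zpowers u).Normal := ⟨fun n hn g => by
    rwa [Subgroup.mem_center_iff.1 (hZc hn) g, mul_inv_cancel_right]⟩
  letI := Fintype.ofFinite (G ⧸ zpowers u)
  have hZp : IsPGroup p (zpowers u) := h.pgrp.to_le hZ
  have hQ : H86.PQuot p (Cen (zpowers u)) ⊤ := H86.pQuot_of_le_center hZc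
  obtain ⟨e', h', ht⟩ := q1_exists_mp h hZ hZc
  obtain ⟨g, hg, h1, h2⟩ := q1_gen hq hd
  refine ⟨G ⧸ zpowers u, inferInstance, inferInstance, _, _, e', h', ?_, ?_, ?_, ?_,
    blockRank_quotSet h.hM h.hB hZp hQ, fun f hf => q1_lat h.hM h.hB hZp hQ hf⟩
  · rintro _ ⟨x, hx, rfl⟩
    exact H86.map_mem_Cen_map (hab hx)
  · rw [h'.card_eq, h.card_eq, pow_defect_quotSet h.hM h.hB hZp hQ, Nat.card_zpowers, mul_comm]
  · rintro n hn _ ⟨x, hx, rfl⟩
    rw [← map_pow, hn x hx, map_one]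
  · refine q1_dvd (g := QuotientGroup.mk' _ g) (H86.map_mem_Nor_map (H86.St_le_Nor _ _ _ hg))
      (by rw [← map_pow]; exact H86.map_mem_Cen_map h1) fun t' ht' => ?_
    obtain ⟨t, ht1, ht2⟩ := ht t' ht'
    obtain ⟨i, hi⟩ := h2 t ht1
    refine ⟨i, ?_⟩
    rintro _ ⟨x, hx, rfl⟩
    rw [ht2 _ ⟨x, hx, rfl⟩, ← map_zpow, ← map_inv, ← map_inv, ← map_mul, ← map_mul, ← map_mul,
      ← map_mul, hi x hx]

theorem exists_red (h : MP p M B P e) (hab : P ≤ Cen P) (hu : u ∈ P) (hq : q.Prime)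
    (hd : (Cen P).relIndex (St ⊤ P e ⊓ Cen (zpowers u)) ∣ q) :
    ∃ (K : Type u) (_ : Group K) (_ : Fintype K) (c : Set (IrrCharacter K)) (Q : Subgroup K)
      (e' : MonoidAlgebra (F M) K), MP p M c Q e' ∧ Q ≤ Cen Q ∧
      Nat.card Q * orderOf u = Nat.card P ∧
      (∀ n : ℕ, (∀ x ∈ P, x ^ n = 1) → ∀ y ∈ Q, y ^ n = 1) ∧ Nat.card (inq Q e') ∣ q ∧
      blockRank p c = blockRank p (loc p M P e (zpowers u)) ∧
      ∀ f ∈ lat p (loc p M P e (zpowers u)), ∃ f' ∈ lat p c,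
        qf p c f' f' = qf p (loc p M P e (zpowers u)) f f := by
  have hZ : zpowers u ≤ P := Subgroup.zpowers_le.2 hu
  have hc : P ≤ Cen (zpowers u) := hab.trans (H86.Cen_anti hZ)
  obtain ⟨e', he, h'⟩ := h.down hZ hc
  obtain ⟨K, i1, i2, c, Q, e'', h1, h2, h3, h4, h5⟩ := q1_central h' (ab_subgroupOf hc hab)
    (u := ⟨u, hc hu⟩) hu (Subgroup.mem_center_iff.2 fun g =>
      Subtype.ext (H86.mem_Cen_zpowers.1 g.2).symm) hq (by rw [q1_card_inq hc, he]; exact hd)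
  refine ⟨K, i1, i2, c, Q, e'', h1, h2, ?_, fun n hn => h4 n fun x hx => Subtype.ext (hn x hx), h5⟩
  rw [← Subgroup.orderOf_mk u (hc hu), h3]
  exact Nat.card_congr (Subgroup.subgroupOfEquivOfLe hc).toEquiv

theorem q1_rank_eq (h : MP p M B P e) (hab : P ≤ Cen P) (hu : u ∈ P)
    (hT : St ⊤ P e ≤ Cen (zpowers u)) : blockRank p B = blockRank p (loc p M P e (zpowers u)) := by
  haveI := H33.charP h.hM
  have hb := h.blk (le_refl P)
  refine (Cfsg.Agent.S4644.result p M h.hM B h.hB P h.defect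
    (fun x hx y hy => H86.mem_Cen.1 (hab hy) x hx) _ (h.induced le_rfl hab) (St ⊤ P e) (fun g => ?_)
    u hu (fun g hg => ?_) _ ?_ _ (h.inducedIn (Subgroup.zpowers_le.2 hu) le_rfl hab)).1
  · rw [H86.mem_Nor_and_stabilizes_iff hb, h.eS_top, H86.St_top]
  · rw [← H86.mem_Cen_zpowers.1 (hT hg), mul_inv_cancel_right]
  · exact (H33.IsCen_eq (H84.isCen_singleton u)).symm

theorem q1_rank (hq : q.Prime) (n : ℕ) : ∀ {G : Type u} [Group G] [Fintype G]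
    {B : Set (IrrCharacter G)} {P : Subgroup G} {e : MonoidAlgebra (F M) G}, MP p M B P e →
    P ≤ Cen P → Nat.card P = n → Nat.card (inq P e) ∣ q → blockRank p B ≤ q := by
  induction n using Nat.strong_induction_on with
  | _ n ih =>
  intro G _ _ B P e h hab hn hd
  by_cases h1 : P = ⊥
  · have h2 := h.card_eq
    rw [h1, Subgroup.card_bot, eq_comm, Nat.pow_eq_one] at h2
    rw [blockRank_eq_one_of_defect_zero h.hM h.hB
      (h2.resolve_left (Fact.out : p.Prime).one_lt.ne')]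
    exact hq.pos
  by_cases hf : Free P e
  · exact (h.rank_le hab hf h1).1.trans (Nat.le_of_dvd hq.pos hd)
  simp only [Free, not_forall] at hf
  obtain ⟨t, ht, x, hx, hx1, htx, htc⟩ := hf
  have hT : St ⊤ P e ≤ Cen (zpowers x) := fun s hs => by
    obtain ⟨α, hα, h3⟩ := exists_mem_inq ht
    obtain ⟨β, hβ, h4⟩ := exists_mem_inq hs
    have h5 : (⟨α, hα⟩ : inq P e) ≠ 1 := fun h5 => htc (H86.mem_Cen.2 fun y hy => by
      have := h3 ⟨y, hy⟩
      rw [show α = 1 from congrArg Subtype.val h5] at this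
      exact eq_mul_inv_iff_mul_eq.1 this)
    have h6 : Nat.card (inq P e) = q := ((Nat.dvd_prime hq).1 hd).resolve_left fun h6 =>
      h5 (@Subsingleton.elim _ (Nat.card_eq_one_iff_unique.1 h6).1 _ _)
    haveI := Fact.mk hq
    have h7 : β ∈ zpowers α := by
      obtain ⟨i, hi⟩ := mem_zpowers_of_prime_card h6 h5 (g' := ⟨β, hβ⟩)
      exact ⟨i, congrArg Subtype.val hi⟩
    have h8 : zpowers α ≤ MulAction.stabilizer (MulAut P) (⟨x, hx⟩ : P) :=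
      Subgroup.zpowers_le.2 (Subtype.ext ((h3 ⟨x, hx⟩).trans htx))
    have h9 : (β ⟨x, hx⟩ : G) = x := congrArg Subtype.val (h8 h7)
    rw [h4] at h9
    exact H86.mem_Cen_zpowers.2 (mul_inv_eq_iff_eq_mul.1 h9).symm
  obtain ⟨K, _, _, c, Q, e', h2, h3, h4, -, h5, h6, -⟩ := exists_red h hab hx hq
    (by rw [inf_eq_left.2 hT, ← card_inq]; exact hd)
  rw [q1_rank_eq h hab hx hT, ← h6]
  refine ih _ ?_ h2 h3 rfl h5
  have h7 : 1 < orderOf x := by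
    have := orderOf_pos x
    have := mt orderOf_eq_one_iff.1 hx1
    omega
  have h8 : 0 < Nat.card Q := Nat.card_pos
  rw [← hn, ← h4]
  nlinarith

theorem rank_le_prime (h : MP p M B P e) (hab : P ≤ Cen P) (hq : q.Prime)
    (hd : Nat.card (inq P e) ∣ q) : blockRank p B ≤ q := q1_rank hq _ h hab rfl hd

theorem rank_le_of_ab (h : MP p M B P e) (hu : u ∈ P) (hf : FC p P e u) {A : Subgroup G}
    (hA : A = P ⊓ Cen (zpowers u)) (hab : A ≤ Cen A) (hq : q.Prime)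
    (hd : ¬ p ∣ (Cen A).relIndex (SQ p M P e A ⊓ Cen (zpowers u)) →
      (Cen A).relIndex (SQ p M P e A ⊓ Cen (zpowers u)) ∣ q) :
    blockRank p (loc p M P e (zpowers u)) ≤ q := by
  haveI := H33.charP h.hM
  have hZ : zpowers u ≤ P := Subgroup.zpowers_le.2 hu
  have hAP : A ≤ P := hA ▸ inf_le_left
  have hAC : A ≤ Cen (zpowers u) := hA ▸ inf_le_right
  have hZA : zpowers u ≤ A := hA ▸ le_inf hZ (zpowers_le_Cen u)
  have hm := ((h.nsub hZA hAP (hAC.trans (H86.Cen_le_Nor _))).pairOf hAC inf_le_right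
    le_top).isMaxPair (hA ▸ isDef_of_fc h hu hf)
  obtain ⟨e', he, h'⟩ := exists_mp_of_max h.hM (h.blk hZ) hm
  have h1 := q1_card_inq hAC e'
  rw [he] at h1
  have hab' := ab_subgroupOf hAC hab
  exact rank_le_prime h' hab' hq (h1 ▸ hd (h1 ▸ h'.not_dvd_card_inq hab'))

end OL5
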